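import Cfsg.Agent.McL3.Data

/-! Finite computations in `A₆` and `SL₂(5)`. -/

set_option autoImplicit false
set_option maxRecDepth 100000
set_option synthInstance.maxSize 4000

namespace Cfsg.Agent.McL3

open Cfsg.Agent.Mat

/-- The model of `A₆`. -/
abbrev A := cl ms6

def c0 : A := el ms6 [0]
def d0 : A := el ms6 [1]
def m0 : A := el ms6 [2, 0, 0, 2, 2]
def t0 : A := el ms6 [0, 2, 0, 1, 2, 0, 2]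
def w0 : A := el ms6 [0, 1, 1, 2]
def r0 : A := el ms6 [0, 2, 2, 0]
def r1 : A := el ms6 [1, 2, 0, 0, 1]

/-- Membership in the Sylow `3`-subgroup. -/
def InS (y : A) : Prop := y * c0 = c0 * y ∧ y * d0 = d0 * y

instance : DecidablePred InS := fun _ => by unfold InS; infer_instance

/-- Membership in its normalizer. -/
def InN (y : A) : Prop := InS (y * c0 * y⁻¹) ∧ InS (y * d0 * y⁻¹)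

instance : DecidablePred InN := fun _ => by unfold InN; infer_instance

theorem A1 : InN m0 ∧ m0 ^ 4 = 1 ∧ m0 * m0 = t0 ∧ t0 ≠ 1 ∧ w0 * w0 = 1 ∧ w0 * t0 * w0⁻¹ * t0 = 1 ∧
    w0⁻¹ * m0 * w0 * m0 = 1 ∧ ¬ InN w0 ∧ w0 ≠ 1 ∧ w0 * t0 ≠ 1 ∧ c0 ≠ 1 ∧ InS c0 ∧ InS d0 ∧ ¬ InS t0 ∧
    r0⁻¹ * t0 * r0 = w0 ∧ r0⁻¹ * w0 * r0 = t0 * w0 ∧ r1⁻¹ * t0 * r1 = w0 * m0 ∧
    r1⁻¹ * (w0 * m0) * r1 = t0 * (w0 * m0) ∧ r0 * r0 * (r1 * r1) * w0 * (r0 * r0) * m0 = c0 := by decide +kernel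

theorem A2 : ∀ y, InS y → y ^ 3 = 1 ∧ t0 * y * t0⁻¹ * y = 1 ∧ InN y := by decide +kernel

theorem A3 : ∀ y, y ^ 3 = 1 → (c0 * y) ^ 3 = 1 → (d0 * y) ^ 3 = 1 → InS y := by decide +kernel

theorem A4 : ∀ g, InN g → ∀ y, InS y → InS (g * y * g⁻¹) := by decide +kernel

theorem A5 : ∀ g, InN (g⁻¹ * t0 * g) → InN g ∨ InN (w0 * g) := by decide +kernel

theorem A6 : ∀ y, InS y → y ≠ 1 → ∀ g, InN (g⁻¹ * y * g) → InN g := by decide +kernel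

theorem A7 : ∀ y : A, y ^ 3 = 1 → (∀ v ∈ [t0, w0, t0 * w0], (y * (v * y * v⁻¹)) ^ 3 = 1 ∧ (y * (v * y * v⁻¹)⁻¹) ^ 3 = 1) →
    y = 1 := by decide +kernel

theorem A8 : ∀ v : A, v * v = 1 → v ≠ 1 → ∃ g, g * t0 * g⁻¹ = v := by decide +kernel

theorem A9 : ∀ g, InN g → g * t0 = t0 * g → InS (g * g) → g = 1 ∨ g * t0 = 1 := by decide +kernel

theorem A10 : ∀ y : A, (((y ^ 2) ^ 2) ^ 3) ^ 5 = 1 := by decide +kernel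

def aX : X := el msX [0]
def hX : X := el msX [2]
def tX : X := el msX [4]
def uX : X := el msX [0, 3, 3, 0, 3, 3]
def fX : X := el msX [2, 1, 3, 3, 0, 3, 3]
def gX : X := el msX [3, 1]

theorem X1 : aX ^ 3 = 1 ∧ hX ^ 5 = 1 ∧ tX ^ 2 = 1 ∧ (aX * hX) ^ 2 = tX ∧ aX ≠ 1 ∧ hX ≠ 1 ∧ tX ≠ 1 ∧
    el msX [1] = aX⁻¹ ∧ el msX [3] = hX⁻¹ ∧ uX = aX * hX⁻¹ * hX⁻¹ * aX * hX⁻¹ * hX⁻¹ ∧ fX * fX = tX ∧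
    fX * aX * fX⁻¹ = aX⁻¹ ∧ gX * fX * gX⁻¹ = fX * tX ∧ (aX * hX) ^ 4 = 1 ∧ hX ^ 2 ≠ 1 ∧ hX ^ 2 ≠ tX := by decide +kernel

theorem X2 : ∀ x : X, x * tX = tX * x ∧ (x * x = 1 → x = 1 ∨ x = tX) ∧ (((x ^ 2) ^ 2) ^ 3) ^ 5 = 1 ∧
    (x = 1 ∨ x ^ 3 = 1 ∨ x ^ 5 = 1 ∨ x = tX ∨ x ^ 2 = tX ∨ x ^ 3 = tX ∨ x ^ 5 = tX) ∧ ∃ y v, x = y * y * (v * v) := by
  decide +kernel

theorem X3 : ∀ x : X, x ^ 3 = 1 → x ≠ 1 → (∀ y, y ^ 3 = 1 → (y ≠ 1 → ∃ g, g * x * g⁻¹ = y) ∧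
    ((x * y) ^ 3 = 1 → y = 1 ∨ y = x ∨ y = x⁻¹)) ∧
    ∃ g, ((x * (g * x * g⁻¹)) ^ 2) ^ 5 = 1 ∧ (x * (g * x * g⁻¹)) ^ 2 ≠ 1 := by decide +kernel

theorem X4 : ∀ x : X, x ^ 3 = 1 → ∀ y, y ^ 5 = 1 → (x * y) ^ 2 = tX →
    ∃ e, (e * aX * e⁻¹ = x ∧ e * hX * e⁻¹ = y) ∨ (e * aX⁻¹ * e⁻¹ = x ∧ e * uX * e⁻¹ = y) := by decide +kernel

theorem X5 : ∀ e : X, (e * aX * e⁻¹ = aX⁻¹ → e * e = tX) ∧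
    (e * aX⁻¹ * e⁻¹ = aX⁻¹ → ∃ i < 3, e = aX ^ i ∨ e = aX ^ i * tX) := by decide +kernel

end Cfsg.Agent.McL3
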