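import Cfsg.Agent.McL3.QLoc3

/-! The normalizer of the elementary abelian subgroup. -/

set_option autoImplicit false
set_option linter.unusedSectionVars false

namespace Cfsg.Agent.McL3

open Cfsg.Agent.Mat Cfsg.Agent.Local Subgroup
open scoped Pointwise

attribute [local irreducible] c0 d0 m0 t0 w0 r0 r1

variable {G : Type*} [Group G] [Finite G] {z : G} {S Q J L M : Subgroup G} {ρ : L →* X} {π : M →* A}

/-- The chosen elements. -/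
structure H1 (z : G) (S Q J L M : Subgroup G) (ρ : L →* X) (π : M →* A) (m t w : M) : Prop
    extends H0 z S Q J L M ρ π where
  πS : ∀ g, InS (π g) ↔ g.1 ∈ S
  πm : π m = m0
  mm : m * m = t
  tt : t * t = 1
  πw : π w = w0
  ww : w * w = 1
  wt : w * t = t * w

theorem H0.J3' (h : H0 z S Q J L M ρ π) {g : M} (e : π g = 1) : g ^ 3 = 1 := Subtype.ext (h.J3 _ ((h.πk g).mp e))

theorem exists_aut {M Y : Type*} [Group M] [Group Y] [Finite Y] {π : M →* Y} {T : Subgroup M} {P : Subgroup Y}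
    (h : IsSylowIn 3 (T.map π) ⊤) (hP : ∀ y ∈ P, y ^ 3 = 1) : ∃ e : Y ≃* Y, ∀ y ∈ P, ∃ s ∈ T, e (π s) = y := by
  obtain ⟨n, -, h2⟩ := h.exists_le_conj (Q := P) (fun y => ⟨1, Subtype.ext (hP _ y.2)⟩) le_top
  refine ⟨MulAut.conj n, fun y hy => ?_⟩
  obtain ⟨-, ⟨s, hs, rfl⟩, e⟩ := h2 hy
  exact ⟨s, hs, e⟩

theorem H0.exists_pi (h : H0 z S Q J L M ρ π) : ∃ π, H0 z S Q J L M ρ π ∧ ∀ g, InS (π g) ↔ g.1 ∈ S := by
  have h1 := isSylowIn_map_top (subgroupOf_self M ▸ (h.syl.of_le h.SM le_top).subgroupOf le_rfl) h.πs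
  have h0 : ∀ y, y ∈ centralizer {c0, d0} ↔ InS y := fun y => by simp [mem_centralizer_iff, InS, eq_comm]
  obtain ⟨n, h2⟩ := exists_aut h1 fun y hy => (A2 _ ((h0 y).mp hy)).1
  let π' := n.toMonoidHom.comp π
  have h3 : ∀ y, InS y → ∃ s : M, s.1 ∈ S ∧ π' s = y := fun y hy => h2 y ((h0 y).mpr hy)
  have h4 : ∀ s : M, s.1 ∈ S → π' s ^ 3 = 1 := fun s hs => by
    obtain ⟨k, hk⟩ := h.S3 hs
    exact cube_of (A10 _) (k := k) (by rw [← map_pow, show s ^ 3 ^ k = 1 from Subtype.ext hk, map_one])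
  have h' : H0 z S Q J L M ρ π' := { h with
    πs := n.surjective.comp h.πs
    πk := fun g => n.map_eq_one_iff.trans (h.πk g) }
  obtain ⟨c, c1, c2⟩ := h3 _ A1.2.2.2.2.2.2.2.2.2.2.2.1
  obtain ⟨d, d1, d2⟩ := h3 _ A1.2.2.2.2.2.2.2.2.2.2.2.2.1
  refine ⟨π', h', fun g => ⟨fun e => ?_, fun e => A3 _ (h4 g e) ?_ ?_⟩⟩
  · obtain ⟨s, s1, s2⟩ := h3 _ e
    simpa using mul_mem (h.JS ((h'.πk (g * s⁻¹)).mp (by rw [map_mul, map_inv, s2, mul_inv_cancel]))) s1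
  · rw [← c2, ← map_mul]
    exact h4 _ (mul_mem c1 e)
  · rw [← d2, ← map_mul]
    exact h4 _ (mul_mem d1 e)

theorem lift_d8 {M Y : Type*} [Group M] [Group Y] {π : M →* Y} (hs : Function.Surjective π) (h3 : ∀ g, π g = 1 → g ^ 3 = 1)
    {m0 t0 w0 : Y} (a2 : m0 ^ 4 = 1) (a3 : m0 * m0 = t0) (a5 : w0 * w0 = 1) (a6 : w0 * t0 * w0⁻¹ * t0 = 1) :
    ∃ m t w, π m = m0 ∧ m * m = t ∧ t * t = 1 ∧ π w = w0 ∧ w * w = 1 ∧ w * t = t * w := by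
  obtain ⟨m, hm⟩ := hs m0
  obtain ⟨v, hv⟩ := hs w0
  have m1 : (m ^ 4) ^ 3 = 1 := h3 _ (by rw [map_pow, hm, a2])
  have m2 : π (m ^ 9) = m0 := by rw [map_pow, hm, pow_succ, show 8 = 4 * 2 from rfl, pow_mul, a2, one_pow, one_mul]
  have m3 : m ^ 9 * m ^ 9 * (m ^ 9 * m ^ 9) = 1 := by
    rw [← pow_add, ← pow_add, show 9 + 9 + (9 + 9) = 4 * 3 * 3 from rfl, pow_mul, pow_mul, m1, one_pow]
  have m4 : π (m ^ 9 * m ^ 9) = t0 := by rw [map_mul, m2, a3]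
  generalize m ^ 9 = m at m2 m3 m4
  generalize ht : m * m = t at m3 m4
  have v1 : (v * v) ^ 3 = 1 := h3 _ (by rw [map_mul, hv, a5])
  have v2 : π (v ^ 3) = w0 := by rw [map_pow, hv, pow_succ, pow_two, a5, one_mul]
  have v3 : v ^ 3 * v ^ 3 = 1 := by rw [← Commute.mul_pow (Commute.refl v), v1]
  generalize v ^ 3 = v at v2 v3
  have v4 : π (t * v) * π (t * v) = 1 := by
    rw [map_mul, m4, v2, ← mul_eq_one_comm.mp a6, inv_eq_of_mul_eq_one_right a5, mul_assoc, mul_assoc]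
  have v5 : (t * v) ^ 3 * (t * v) ^ 3 = 1 := by
    rw [← Commute.mul_pow (Commute.refl _), h3 _ (by rw [map_mul, v4])]
  have v6 : t * (t * v) ^ 3 * t⁻¹ = (t * v) ^ 3 := by
    rw [← conj_pow, ← inv_eq_of_mul_eq_one_right v5, ← inv_pow, ← mul_assoc, m3, one_mul, mul_inv_rev,
      inv_eq_of_mul_eq_one_right v3]
  refine ⟨m, t, t * (t * v) ^ 3, m2, ht, m3, ?_, ?_, ?_⟩
  · rw [map_mul, map_pow, pow_succ, pow_two, v4, one_mul, ← map_mul, ← mul_assoc, m3, one_mul, v2]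
  · rw [← mul_assoc, mul_inv_eq_iff_eq_mul.mp v6, mul_assoc _ t t, m3, mul_one, v5]
  · rw [mul_assoc, ← mul_inv_eq_iff_eq_mul.mp v6]

theorem H0.exists_H1 (h : H0 z S Q J L M ρ π) : ∃ π m t w, H1 z S Q J L M ρ π m t w := by
  obtain ⟨π, h, h1⟩ := h.exists_pi
  obtain ⟨m, t, w, a, b, c, d, e, f⟩ := lift_d8 h.πs (fun _ => h.J3') A1.2.1 A1.2.2.1 A1.2.2.2.2.1 A1.2.2.2.2.2.1
  exact ⟨π, m, t, w, h, h1, a, b, c, d, e, f⟩

theorem sq_comm (hz : orderOf z = 3) {g : G} (h : g ∈ Nz z) : g * g * z = z * (g * g) := by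
  refine mul_inv_eq_iff_eq_mul.mp ?_
  rw [show g * g * z * (g * g)⁻¹ = g * (g * z * g⁻¹) * g⁻¹ by group]
  rcases (mem_Nz hz).mp h with e | e <;> rw [e]
  exacts [e, by rw [← conj_inv, e, inv_inv]]

namespace H1

variable {m t w : M} (h : H1 z S Q J L M ρ π m t w)
include h

theorem πt : π t = t0 := by rw [← h.mm, map_mul, h.πm, A1.2.2.1]

theorem πN {g : M} : InN (π g) ↔ g.1 ∈ Nz z := by
  refine ⟨fun e => h.nS (mem_normalizer_of_conj_mem fun s hs => (h.πS (g * ⟨s, h.SM hs⟩ * g⁻¹)).mp ?_), fun e => ?_⟩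
  · rw [map_mul, map_mul, map_inv]
    exact A4 _ e _ ((h.πS _).mpr hs)
  · have h1 : ∀ y, InS y → InS (π g * y * (π g)⁻¹) := fun y hy => by
      obtain ⟨s, rfl⟩ := h.πs y
      rw [← map_inv, ← map_mul, ← map_mul, h.πS]
      exact conj_mem_of_mem_normalizer (h.NZJ e (h.MJ g.2)) ((h.πS s).mp hy)
    exact ⟨h1 _ A1.2.2.2.2.2.2.2.2.2.2.2.1, h1 _ A1.2.2.2.2.2.2.2.2.2.2.2.2.1⟩

theorem act {g g' : M} (e : π g = π g') {b : G} (hb : b ∈ J) : g * b * g.1⁻¹ = g' * b * g'.1⁻¹ := by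
  have h1 := h.Jc _ ((h.πk (g'⁻¹ * g)).mp (by rw [map_mul, map_inv, e, inv_mul_cancel])) b hb
  calc _ = g' * (g'.1⁻¹ * g * b) * g.1⁻¹ := by group
    _ = _ := by rw [show g'.1⁻¹ * g * b = b * (g'.1⁻¹ * g) from h1]; group

theorem cjJ (g : M) {b : G} (hb : b ∈ J) : g * b * g.1⁻¹ ∈ J := conj_mem_of_mem_normalizer (h.MJ g.2) hb

theorem mN : m.1 ∈ Nz z := h.πN.mp (h.πm ▸ A1.1)

theorem mm' : m.1 * m = t := congrArg Subtype.val h.mm

theorem tt' : t.1 * t = 1 := congrArg Subtype.val h.tt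

theorem ww' : w.1 * w = 1 := congrArg Subtype.val h.ww

theorem wt' : w.1 * t = t * w := congrArg Subtype.val h.wt

theorem wi : w.1⁻¹ = w := inv_eq_of_mul_eq_one_right h.ww'

theorem tN : t.1 ∈ Nz z := h.mm' ▸ mul_mem h.mN h.mN

theorem tz : t * z = z * t := h.mm' ▸ sq_comm h.oz h.mN

theorem t1 : t.1 ≠ 1 := fun e => A1.2.2.2.1 (by rw [← h.πt, show t = 1 from Subtype.ext e, map_one])

theorem fpf_t : Q ⊓ Cm z t ≤ zpowers z := h.toH0.fpf_t h.tN h.tz fun q hq =>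
  (h.πk (t * ⟨q, h.SM (h.QS hq)⟩ * t⁻¹ * ⟨q, h.SM (h.QS hq)⟩)).mp (by
    rw [map_mul, map_mul, map_mul, map_inv, h.πt]
    exact (A2 _ ((h.πS _).mpr (h.QS hq))).2.1)

theorem ti : Iv z Q t := h.iv_of le_rfl (fun _ => h.cj h.tN) (h.tt' ▸ one_mem _) h.fpf_t

theorem CQt {q : G} (hq : q ∈ Q) (e : t * q = q * t) : q ∈ zpowers z := h.fpf_t ⟨hq, Cm.of_comm (h.QN hq) e⟩

theorem aJ : w * z * w.1⁻¹ ∈ J := h.cjJ w h.zJ

theorem ta : t * (w * z * w.1⁻¹) = w * z * w.1⁻¹ * t :=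
  (((Commute.symm h.wt').mul_right h.tz).mul_right (Commute.symm h.wt').inv_right).eq

theorem aQ : w * z * w.1⁻¹ ∉ Q := fun e => A1.2.2.2.2.2.2.2.1 (h.πw ▸ h.πN.mpr ((mem_Nz h.oz).mpr
  ((Char.mem_zpowers_three h.oz (h.CQt e h.ta)).resolve_left (mt conj_eq_one_iff.mp h.z1))))

theorem wa : w * (w * z * w.1⁻¹) * w.1⁻¹ = z := by
  rw [h.wi, ← mul_assoc, ← mul_assoc, h.ww', one_mul, mul_assoc, h.ww', mul_one]

theorem DJ {b : G} (hb : b ∈ J) (e : t * b = b * t) : ∃ i j : ℤ, z ^ i * (w * z * w.1⁻¹) ^ j = b := by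
  obtain ⟨j, hj⟩ := h.SQ (h.JS h.aJ) h.aQ (h.JS hb)
  obtain ⟨i, hi⟩ := h.CQt hj ((Commute.mul_right e (Commute.zpow_right h.ta j)).eq)
  exact ⟨i, -j, by rw [show z ^ i = _ from hi, zpow_neg, mul_inv_cancel_right]⟩

theorem CZ {x : G} (hx : x * z * x⁻¹ ∈ J) : ∃ g : M, ∃ n ∈ Nz z, x = g * n := by
  have h1 : MulAut.conj x⁻¹ • J ≤ Nz z := by
    rintro - ⟨b, hb, rfl⟩
    refine (mem_Nz h.oz).mpr (.inl (mul_inv_eq_iff_eq_mul.mpr ?_))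
    calc x⁻¹ * b * x⁻¹⁻¹ * z = x⁻¹ * (b * (x * z * x⁻¹)) * x := by group
      _ = z * (x⁻¹ * b * x⁻¹⁻¹) := by rw [h.Jc b hb _ hx]; group
  obtain ⟨y, hy, h2⟩ := (h.syl.of_le (h.SL.trans h.LN) le_top).exists_le_conj
    ((h.syl.isPGroup.to_le h.JS).map _) h1
  have h3 : y⁻¹ * x⁻¹ ∈ normalizer (J : Set G) := h.NJ fun b hb => by
    simpa [mul_assoc] using mem_conj_smul_iff.mp (h2 (conj_mem_conj_smul x⁻¹ hb))
  obtain ⟨g, hg, h4⟩ := (h.syl.of_le h.SM le_top).frattini (h.nM (inv_mem h3))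
  exact ⟨⟨g, hg⟩, _, mul_mem (h.nS h4) (inv_mem hy), by group⟩

theorem CZ1 {x : G} (hx : x * z * x⁻¹ ∈ J) (e : t * (x * z * x⁻¹) = x * z * x⁻¹ * t) :
    (x * z * x⁻¹ = z ∨ x * z * x⁻¹ = z⁻¹) ∨ x * z * x⁻¹ = w * z * w.1⁻¹ ∨ x * z * x⁻¹ = (w * z * w.1⁻¹)⁻¹ := by
  obtain ⟨g, n, hn, rfl⟩ := h.CZ hx
  have h1 : n⁻¹ * (g.1⁻¹ * t * g) * n ∈ Nz z := (mem_Nz h.oz).mpr (.inl (by
    calc _ = (g * n)⁻¹ * (t * (g * n * z * (g * n)⁻¹) * t.1⁻¹) * (g * n) := by group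
      _ = z := by rw [e]; group))
  have h2 : InN (π (g⁻¹ * t * g)) := h.πN.mpr (by simpa [mul_assoc] using mul_mem (mul_mem hn h1) (inv_mem hn))
  rw [map_mul, map_mul, map_inv, h.πt] at h2
  refine (A5 _ h2).imp (fun e => (mem_Nz h.oz).mp (mul_mem (h.πN.mp e) hn)) fun e => ?_
  rw [← h.πw, ← map_mul, h.πN] at e
  have h3 : ∀ v, g * n * z * (g * n)⁻¹ = w * v * w.1⁻¹ ↔ w * g * n * z * (w * g * n)⁻¹ = v := fun v => by
    rw [show w * g * n * z * (w * g * n)⁻¹ = w * (g * n * z * (g * n)⁻¹) * w.1⁻¹ by group]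
    generalize g * n * z * (g * n)⁻¹ = u
    rw [mul_inv_eq_iff_eq_mul, ← eq_inv_mul_iff_mul_eq, h.wi, mul_assoc]
  rw [conj_inv, h3, h3]
  exact (mem_Nz h.oz).mp (mul_mem e hn)

theorem za : z * (w * z * w.1⁻¹) = w * z * w.1⁻¹ * z := h.Jc _ h.zJ _ h.aJ

theorem yQ : z * (w * z * w.1⁻¹) ∉ Q := fun e => h.aQ (by simpa using mul_mem (inv_mem h.zQ) e)

theorem oy : orderOf (z * (w * z * w.1⁻¹)) = 3 :=
  orderOf_eq_prime (h.J3 _ (mul_mem h.zJ h.aJ)) fun e => h.yQ (e ▸ one_mem _)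

theorem wy : w * (z * (w * z * w.1⁻¹)) = z * (w * z * w.1⁻¹) * w :=
  mul_inv_eq_iff_eq_mul.mp (by rw [← conj_mul, h.wa, h.za])

theorem ty : t * (z * (w * z * w.1⁻¹)) = z * (w * z * w.1⁻¹) * t := (Commute.mul_right h.tz h.ta).eq

theorem rr {r v : M} (e1 : (π r)⁻¹ * t0 * π r = π v) (e2 : (π r)⁻¹ * π v * π r = t0 * π v)
    (v1 : v * z * v.1⁻¹ = w * z * w.1⁻¹) (v2 : v * (w * z * w.1⁻¹) * v.1⁻¹ = z) :
    Commute (r.1 * r) (z * (w * z * w.1⁻¹)) := by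
  have oy := h.oy
  have ty := h.ty
  have yJ := mul_mem h.zJ h.aJ
  have vy : v * (z * (w * z * w.1⁻¹)) * v.1⁻¹ = z * (w * z * w.1⁻¹) := by rw [← conj_mul, v1, v2, h.za]
  have hD := fun b => h.DJ (b := b)
  have za := h.za
  have aQ := h.aQ
  have a3 := h.J3 _ h.aJ
  generalize w * z * w.1⁻¹ = a at *
  have h1 : ∀ g g' : M, (π r)⁻¹ * π g * π r = π g' → g' * (z * a) * g'.1⁻¹ = z * a →
      g * (r * (z * a) * r.1⁻¹) * g.1⁻¹ = r * (z * a) * r.1⁻¹ := fun g g' e e' => by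
    have := h.act (g := r⁻¹ * g * r) (g' := g') (by rw [map_mul, map_mul, map_inv, e]) yJ
    rw [e'] at this
    conv_rhs => rw [← this]
    simp [mul_assoc]
  obtain ⟨i, j, e⟩ := hD _ (h.cjJ r yJ) (mul_inv_eq_iff_eq_mul.mp (h1 t v (h.πt ▸ e1) vy))
  have h2 := h1 v (t * v) (by rw [map_mul, h.πt, e2]) (by
    rw [coe_mul, mul_assoc t.1, mul_inv_rev, ← mul_assoc, mul_assoc t.1, vy, ty, mul_inv_cancel_right])
  rw [← e, ← conj_mul, ← conj_zpow, ← conj_zpow, v1, v2] at h2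
  have h3 : a ^ (i - j) = z ^ (i - j) := by
    rw [zpow_sub, zpow_sub, (Commute.zpow_zpow_self a i j).inv_right.eq, inv_mul_eq_iff_eq_mul, ← mul_assoc,
      eq_mul_inv_iff_mul_eq, h2, (Commute.zpow_zpow za i j).eq]
  have h4 : a ^ (i - j) = 1 := by
    rcases Char.mem_zpowers_three (orderOf_eq_prime a3 fun e => aQ (e ▸ one_mem _)) (zpow_mem_zpowers a (i - j))
      with e | e | e
    exacts [e, absurd (e ▸ h3 ▸ zpow_mem h.zQ _) aQ, absurd (inv_mem_iff.mp (e ▸ h3 ▸ zpow_mem h.zQ _)) aQ]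
  rw [zpow_sub, mul_inv_eq_one] at h4
  rw [← h4, ← Commute.mul_zpow za] at e
  exact sq_comm oy ((mem_Nz oy).mpr ((Char.mem_zpowers_three oy ⟨i, e⟩).resolve_left fun e =>
    (by simp [conj_eq_one_iff.mp e] at oy)))

theorem minv : m * z * m.1⁻¹ = z⁻¹ ∧ m * (w * z * w.1⁻¹) * m.1⁻¹ = (w * z * w.1⁻¹)⁻¹ := by
  obtain ⟨-, -, -, -, -, -, a7, -, -, -, a11, a12, -, -, a15, a16, a17, a18, a19⟩ := A1
  have h1 : m * (w * z * w.1⁻¹) * m.1⁻¹ = w * (m.1⁻¹ * z * m) * w.1⁻¹ := by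
    have := h.act (g := w⁻¹ * m * w) (g' := m⁻¹) (by
      rw [map_mul, map_mul, map_inv, map_inv, h.πw, h.πm, show w0⁻¹ * m0 * w0 = m0⁻¹ from eq_inv_of_mul_eq_one_left a7]) h.zJ
    rw [coe_inv, inv_inv] at this
    rw [← this]
    simp [mul_assoc]
  rcases (mem_Nz h.oz).mp h.mN with e | e
  · exfalso
    rw [show m.1⁻¹ * z * m = z by rw [mul_assoc, ← mul_inv_eq_iff_eq_mul.mp e, inv_mul_cancel_left]] at h1
    obtain ⟨r, hr⟩ := h.πs r0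
    obtain ⟨s, hs⟩ := h.πs r1
    have h2 := h.rr (r := r) (v := w) (by rw [hr, h.πw, a15]) (by rw [hr, h.πw, a16]) rfl h.wa
    have h3 := h.rr (r := s) (v := w * m) (by rw [hs, map_mul, h.πw, h.πm, a17]) (by rw [hs, map_mul, h.πw, h.πm, a18])
      (by conv_rhs => rw [← e]
          simp [mul_assoc])
      (by rw [coe_mul, mul_assoc w.1, mul_inv_rev, ← mul_assoc, mul_assoc w.1, h1, h.wa])
    have h4 : Commute m.1 (z * (w * z * w.1⁻¹)) :=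
      Commute.mul_right (mul_inv_eq_iff_eq_mul.mp e) (mul_inv_eq_iff_eq_mul.mp h1)
    have h5 : π (r * r * (s * s) * w * (r * r) * m) = c0 := by simp only [map_mul, hr, hs, h.πw, h.πm, a19]
    obtain ⟨i, hi⟩ := h.SQ (h.JS h.aJ) h.aQ ((h.πS _).mp (h5 ▸ a12))
    have h6 := h.WA (h.JS (mul_mem h.zJ h.aJ)) h.yQ hi (Cm.of_comm (h.QN hi) (((((h2.mul_left h3).mul_left
      h.wy).mul_left h2).mul_left h4).mul_left (Commute.zpow_left (h.Jc _ h.aJ _ (mul_mem h.zJ h.aJ)) i)).symm)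
    exact a11 (h5 ▸ (h.πk _).mpr (by
      simpa only [zpow_neg, mul_inv_cancel_right] using mul_mem h6 (zpow_mem h.aJ (-i))))
  · refine ⟨e, ?_⟩
    rw [h1, conj_inv, show m.1⁻¹ * z * m = z⁻¹ by
      rw [mul_assoc, inv_mul_eq_iff_eq_mul, ← mul_inv_eq_iff_eq_mul.mp (show m * z⁻¹ * m.1⁻¹ = z by
        rw [← conj_inv, e, inv_inv])]]

theorem cy : centralizer {z * (w * z * w.1⁻¹)} ≤ normalizer (J : Set G) := by
  have yJ := mul_mem h.zJ h.aJ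
  obtain ⟨R, r1, r2, r3, r4⟩ := h.con _ yJ fun e => h.yQ (e ▸ one_mem _)
  have h1 : centralizer {z * (w * z * w.1⁻¹)} ≤ normalizer (R : Set G) := le_normalizer.trans r3
  obtain ⟨x, -, h2⟩ := h.syl.exists_le_conj (IsPGroup.to_sup_of_normal_right' (h.syl.isPGroup.to_le h.JS) r1
    (le_trans (fun b hb => mem_centralizer_singleton_iff.mpr (h.Jc b hb _ yJ)) h1)) le_top
  have h3 : x⁻¹ ∈ normalizer (J : Set G) := h.NJ fun b hb => by
    simpa using mem_conj_smul_iff.mp (h2 (mem_sup_left hb))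
  have h4 : R ≤ M := fun r hr => by
    simpa [mul_assoc] using inv_conj_mem_of_mem_normalizer (h.nM h3) (h.SM (mem_conj_smul_iff.mp (h2 (mem_sup_right hr))))
  have h5 : ∀ r : M, r.1 ∈ R → π r ^ 3 = 1 := fun r hr => by
    obtain ⟨k, hk⟩ := r1 ⟨r, hr⟩
    exact cube_of (A10 _) (k := k) (by
      rw [← map_pow, show r ^ 3 ^ k = 1 from Subtype.ext (congrArg Subtype.val hk :), map_one])
  have h6 : R ≤ J := fun r hr => (h.πk ⟨r, h4 hr⟩).mp (A7 _ (h5 _ hr) fun v hv => by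
    obtain ⟨v, rfl, e⟩ : ∃ u : M, π u = v ∧ u.1 ∈ centralizer {z * (w * z * w.1⁻¹)} := by
      have e1 := mem_centralizer_singleton_iff.mpr h.ty
      have e2 := mem_centralizer_singleton_iff.mpr h.wy
      simp only [List.mem_cons, List.not_mem_nil, or_false] at hv
      rcases hv with rfl | rfl | rfl
      exacts [⟨t, h.πt, e1⟩, ⟨w, h.πw, e2⟩, ⟨t * w, by rw [map_mul, h.πt, h.πw], mul_mem e1 e2⟩]
    have e1 := conj_mem_of_mem_normalizer (h1 e) hr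
    rw [← map_inv, ← map_mul, ← map_mul, ← map_inv, ← map_mul, ← map_mul]
    exact ⟨h5 _ (mul_mem hr e1), h5 _ (mul_mem hr (inv_mem e1))⟩)
  rwa [le_antisymm h6 fun b hb => r4 fun r hr => h.Jc r (h6 hr) b hb] at h1

theorem conj_inv {v v' : M} (h1 : v * v = 1) (h2 : v' * v' = 1) (e : π v = π v') : ∃ r : M, r * v * r⁻¹ = v' :=
  ⟨_, conj3 h1 h2 (h.J3' (by rw [map_mul, e, ← map_mul, h2, map_one]))⟩

theorem wt_conj : ∃ r : M, r * t * r⁻¹ = w := by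
  obtain ⟨r, hr⟩ := h.πs r0
  obtain ⟨s, hs⟩ := h.conj_inv (v := r⁻¹ * t * r⁻¹⁻¹) (by rw [conj_mul, h.tt]; simp) h.ww
    (by rw [inv_inv, map_mul, map_mul, map_inv, hr, h.πt, h.πw, A1.2.2.2.2.2.2.2.2.2.2.2.2.2.2.1])
  exact ⟨s * r⁻¹, by rw [← hs]; group⟩

end H1

end Cfsg.Agent.McL3
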