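import Cfsg.Agent.McL3.MLoc

/-! The centralizer of the involution: local data. -/

set_option autoImplicit false
set_option linter.unusedSectionVars false

namespace Cfsg.Agent.McL3

open Cfsg.Agent.Mat Cfsg.Agent.Local Subgroup
open scoped Pointwise

attribute [local irreducible] c0 d0 m0 t0 w0 r0 r1 aX hX tX uX fX gX

/-- The local data in the centralizer of the involution. -/
structure KH0 {K : Type*} [Group K] (t z m w : K) (ψ : X →* K) : Prop where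
  tc : ∀ g, g * t = t * g
  ψt : ψ tX = t
  oz : orderOf z = 3
  zψ : ∀ x, ψ x * z = z * ψ x
  inj : ∀ x, ψ x ∈ zpowers z → x = 1
  mm : m * m = t
  mz : m * z * m⁻¹ = z⁻¹
  ma : m * ψ aX * m⁻¹ = (ψ aX)⁻¹
  ww : w * w = 1
  wz : w * z * w⁻¹ = ψ aX
  nz : ∀ g ∈ Nz z, ∀ x, ∃ k ∈ zpowers z, ∃ y, g * ψ x * g⁻¹ = k * ψ y
  cl : ∀ c, c * z = z * c → (∀ x, c * ψ x = ψ x * c) → c ∈ zpowers z ∨ c * t ∈ zpowers z
  iv : ∀ c, c * z * c⁻¹ = z⁻¹ → c * ψ hX = ψ hX * c → c * c ≠ 1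
  cz : ∀ g, g * z * g⁻¹ ∈ closure {z, ψ aX} →
    (g * z * g⁻¹ = z ∨ g * z * g⁻¹ = z⁻¹) ∨ g * z * g⁻¹ = ψ aX ∨ g * z * g⁻¹ = (ψ aX)⁻¹
  cy : ∀ g, g * (z * ψ aX) = z * ψ aX * g → g * z * g⁻¹ ∈ closure {z, ψ aX} ∧ g * ψ aX * g⁻¹ ∈ closure {z, ψ aX}
  ex : ∀ u ι, u * z * u⁻¹ = ψ aX → u * ψ aX * u⁻¹ = z → ι * z * ι⁻¹ = z⁻¹ → ι * ι = t → (∀ x, ι * ψ x = ψ x * ι) →
    ∀ x, u * ι * u⁻¹ ≠ ψ x

theorem conj_aut {Y : Type*} [Group Y] {k x y : Y} (h : k * x * k⁻¹ = y) : ∃ n : Y ≃* Y, n x = y := ⟨MulAut.conj k, h⟩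

theorem homX {Y : Type*} [Group Y] [Finite Y] {a h t : Y} (a3 : a ^ 3 = 1) (h5 : h ^ 5 = 1) (tt : t * t = 1)
    (e : (a * h) ^ 2 = t) (ta : t * a = a * t) (th : t * h = h * t) : ∃ ψ : X →* Y, ψ aX = a ∧ ψ hX = h ∧ ψ tX = t := by
  obtain ⟨ψ, hψ⟩ := exists_hom_words (ms := msX) (gs := [a, a⁻¹, h, h⁻¹, t]) rfl (fun l hl => presX l hl) cardX.ge msX_rel (by
    have h1 : ∀ x, t * x = x * t → t * (x * (t * x⁻¹)) = 1 := fun x e => by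
      rw [← mul_assoc x, ← e, mul_assoc, mul_inv_cancel, mul_one, tt]
    simp only [relsX, List.forall_mem_cons, ev, List.getD_cons_succ, List.getD_cons_zero, mul_one, tt, h1 a ta, h1 h th,
      mul_inv_cancel, inv_mul_cancel, true_and]
    refine ⟨by simpa [pow_succ, mul_assoc] using a3, by simpa [pow_succ, mul_assoc] using h5, ?_, by simp⟩
    rw [← tt]
    nth_rw 2 [← e]
    simp [pow_succ, mul_assoc])
  unfold aX hX tX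
  exact ⟨ψ, (hψ _).trans (mul_one _), (hψ _).trans (mul_one _), (hψ _).trans (mul_one _)⟩

variable {G : Type*} [Group G] [Finite G] {z : G} {S Q J L M : Subgroup G} {ρ : L →* X} {π : M →* A} {m t w : M}

/-- The chosen embedding of `SL₂(5)`. -/
structure H2 (z : G) (S Q J L M : Subgroup G) (ρ : L →* X) (π : M →* A) (m t w : M) (ψ : X →* G) : Prop
    extends H1 z S Q J L M ρ π m t w where
  ψa : ψ aX = w * z * w.1⁻¹
  ψt : ψ tX = t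
  ψL : ∀ x, ψ x ∈ L
  ρψ : ∀ x, ρ ⟨ψ x, ψL x⟩ = x

namespace H1

variable (h : H1 z S Q J L M ρ π m t w)
include h

theorem aL : w * z * w.1⁻¹ ∈ L := h.SL (h.JS h.aJ)

theorem lift_t (x : X) : ∃ l : L, ρ l = x ∧ t * l.1 = l * t := by
  obtain ⟨ht, e⟩ := h.t_mem h.tN h.tz h.ti
  obtain ⟨l, rfl⟩ := h.ρs x
  have h1 : ρ (⟨t, ht⟩ * (l * ⟨t, ht⟩ * l⁻¹)) = 1 := by
    rw [map_mul, map_mul, map_mul, map_inv, e, (X2 _).1, mul_inv_cancel_right, ← pow_two, X1.2.2.1]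
  have h2 := conj3 h.tt' (s' := l.1 * t * l.1⁻¹) (by rw [conj_mul, h.tt']; simp) (h.Q3 _ ((h.ρk _).mp h1))
  refine ⟨(⟨t, ht⟩ * (l * ⟨t, ht⟩ * l⁻¹))⁻¹ * l, by rw [map_mul, map_inv, h1, inv_one, one_mul], ?_⟩
  show t.1 * ((t.1 * (l.1 * t * l.1⁻¹))⁻¹ * l) = (t.1 * (l.1 * t * l.1⁻¹))⁻¹ * l * t
  generalize t.1 * (l.1 * t * l.1⁻¹) = n at h2
  calc _ = n⁻¹ * (n * t * n⁻¹) * l := by group
    _ = _ := by rw [h2]; group

theorem exists_H2 : ∃ ρ ψ, H2 z S Q J L M ρ π m t w ψ := by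
  obtain ⟨k, hk⟩ := ((X3 _ (h.ρ3 (s := ⟨_, h.aL⟩) (h.JS h.aJ)) (mt (h.ρk _).mp h.aQ)).1 _ X1.1).1 X1.2.2.2.2.1
  obtain ⟨n, hn⟩ : ∃ n : X ≃* X, n (ρ ⟨_, h.aL⟩) = aX := conj_aut (Y := X) (k := k) hk
  obtain ⟨ρ, h, ha⟩ : ∃ ρ, H1 z S Q J L M ρ π m t w ∧ ρ ⟨_, h.aL⟩ = aX :=
    ⟨n.toMonoidHom.comp ρ, { h with
      ρs := n.surjective.comp h.ρs
      ρk := fun g => n.map_eq_one_iff.trans (h.ρk g) }, hn⟩
  obtain ⟨ht, e⟩ := h.t_mem h.tN h.tz h.ti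
  obtain ⟨x1, x2, x3, x4, x5, -, -, -, -, -, x6, x7, -⟩ := X1
  obtain ⟨y, y1, y2⟩ := h.lift_t hX
  have y3 : (y ^ 6) ^ 5 = 1 := Subtype.ext (h.six ((h.ρk (y ^ 5)).mp (by rw [map_pow, y1, x2])))
  have y4 : ρ (y ^ 6) = hX := by rw [map_pow, y1, pow_succ, x2, one_mul]
  have y5 : Commute (⟨t, ht⟩ : L) (y ^ 6) := Commute.pow_right (Subtype.ext y2) 6
  have ta : Commute (⟨t, ht⟩ : L) ⟨_, h.aL⟩ := Subtype.ext h.ta
  have a3 : (⟨_, h.aL⟩ : L) ^ 3 = 1 := Subtype.ext (h.J3 _ h.aJ)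
  have tt : (⟨t, ht⟩ : L) * ⟨t, ht⟩ = 1 := Subtype.ext h.tt'
  have e1 : (⟨t, ht⟩ : L).1 = t := rfl
  have e2 : (⟨_, h.aL⟩ : L).1 = w * z * w.1⁻¹ := rfl
  generalize y ^ 6 = y at y3 y4 y5
  generalize (⟨t, ht⟩ : L) = s at *
  generalize (⟨_, h.aL⟩ : L) = a at *
  obtain ⟨k, hk⟩ : ∃ k, k * s = (a * y) ^ 2 := ⟨_, inv_mul_cancel_right _ _⟩
  have k1 : k.1 ∈ Q := (h.ρk k).mp (by
    rw [← mul_left_inj (ρ s), ← map_mul, hk, map_pow, map_mul, ha, y4, x4, e, one_mul])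
  have k2 := h.CQt k1 (e1 ▸ congrArg Subtype.val (show s * k = k * s by
    rw [← mul_left_inj s, mul_assoc, hk, ((ta.mul_right y5).pow_right 2).eq]))
  have k3 : ∀ l, Commute k l := fun l => Subtype.ext (zc k2 (h.Lz _ l.2)).symm
  have k4 : k ^ 3 = 1 := Subtype.ext (h.Q3 _ k1)
  obtain ⟨ψ, p1, p2, p3⟩ := homX (a := k * a) (by rw [(k3 a).mul_pow, k4, a3, mul_one]) y3 tt
    (by rw [mul_assoc, (k3 _).mul_pow, ← hk, ← mul_assoc, ← pow_succ, k4, one_mul]) ((k3 s).symm.mul_right ta) y5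
  have p4 : ∀ x, ρ (ψ x) = x := X_top (K := (ρ.comp ψ).eqLocus (MonoidHom.id X))
    (show ρ (ψ aX) = aX by rw [p1, map_mul, (h.ρk k).mpr k1, one_mul, ha]) (show ρ (ψ hX) = hX by rw [p2, y4])
  have p5 : ψ fX * a * (ψ fX)⁻¹ = k * a⁻¹ := by
    have := congrArg ψ x7
    rw [map_mul, map_mul, map_inv, map_inv, p1, ← mul_assoc, ← (k3 _).eq, mul_assoc k, mul_assoc k,
      ← eq_inv_mul_iff_mul_eq] at this
    rw [this, (k3 a).eq, mul_inv_rev, ← mul_assoc, ← mul_inv_rev, inv_eq_of_mul_eq_one_left (pow_three k ▸ k4)]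
  have p6 : (ψ fX).1 * w * z * ((ψ fX).1 * w)⁻¹ = k * a.1⁻¹ := by
    rw [← show ψ fX * a * (ψ fX).1⁻¹ = k * a.1⁻¹ from congrArg Subtype.val p5, e2]
    group
  have aQ : a.1 ∉ Q := e2 ▸ h.aQ
  have p7 := h.CZ1 (x := (ψ fX).1 * w) (p6 ▸ mul_mem (zpowers_le.mpr h.zJ k2) (inv_mem (e2 ▸ h.aJ)))
    (p6 ▸ e1 ▸ congrArg Subtype.val ((k3 s).symm.mul_right ta.inv_right).eq)
  rw [p6, ← e2] at p7
  refine ⟨ρ, L.subtype.comp ψ, h, show (ψ aX).1 = _ from ?_, e1 ▸ congrArg Subtype.val p3, fun x => (ψ x).2, p4⟩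
  rcases p7 with (e | e) | e | e
  · exact absurd (by simpa [← e] using mul_mem (inv_mem h.zQ) k1) aQ
  · exact absurd (by simpa [← e] using mul_mem (inv_mem (inv_mem h.zQ)) k1) aQ
  · exact absurd (sq_mem ((show a.1 ^ 3 = 1 from congrArg Subtype.val a3) ▸ one_mem Q) (mul_inv_eq_iff_eq_mul.mp e ▸ k1)) aQ
  · rw [p1, coe_mul, mul_eq_right.mp e, one_mul, e2]

end H1

namespace H2

variable {ψ : X →* G} (h : H2 z S Q J L M ρ π m t w ψ)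
include h

theorem tψ (x : X) : ψ x * t = t * ψ x := by rw [← h.ψt, ← map_mul, ← map_mul, (X2 x).1]

theorem zψ (x : X) : ψ x * z = z * ψ x := h.Lz _ (h.ψL x)

theorem inj {x : X} (e : ψ x ∈ Q) : x = 1 := h.ρψ x ▸ (h.ρk _).mpr e

theorem y5 : ψ hX ^ 5 = 1 := by rw [← map_pow, X1.2.1, map_one]

theorem y1 : ψ hX ≠ 1 := fun e => X1.2.2.2.2.2.1 (h.inj (e ▸ one_mem _))

theorem ff : ψ fX * ψ fX = t := by rw [← h.ψt, ← map_mul, X1.2.2.2.2.2.2.2.2.2.2.1]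

theorem fa : ψ fX * (w * z * w.1⁻¹) * (ψ fX)⁻¹ = (w * z * w.1⁻¹)⁻¹ := by
  rw [← h.ψa, ← map_inv, ← map_inv, ← map_mul, ← map_mul, X1.2.2.2.2.2.2.2.2.2.2.2.1]

theorem nz {g : G} (hg : g ∈ Nz z) (gt : g * t = t * g) (x : X) :
    ∃ k ∈ zpowers z, ∃ y, g * ψ x * g⁻¹ = k * ψ y := by
  have h1 := conj_mem_of_mem_normalizer (h.nL hg) (h.ψL x)
  exact ⟨_, h.CQt ((h.ρk (⟨_, h1⟩ * (⟨_, h.ψL (ρ ⟨_, h1⟩)⟩ : L)⁻¹)).mp (by rw [map_mul, map_inv, h.ρψ, mul_inv_cancel]))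
    ((((Commute.symm gt).mul_right (h.tψ x).symm).mul_right (Commute.symm gt).inv_right).mul_right
      (Commute.inv_right (h.tψ _).symm)).eq, _, (inv_mul_cancel_right _ _).symm⟩

theorem zi : z ≠ z⁻¹ := fun e => h.z1 (by
  have := h.z3
  rwa [pow_three', eq_inv_iff_mul_eq_one.mp e, one_mul] at this)

theorem ιJ {ι : G} (h0 : ι ∈ Nz z) (e : ι * ψ aX = ψ aX * ι) : ι ∈ normalizer (J : Set G) :=
  h.NJa h.aJ h.aQ h0 (.inl (by rw [← h.ψa, e, mul_inv_cancel_right]))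

theorem ex {u ι : G} (ut : u * t = t * u) (ua : u * ψ aX * u⁻¹ = z) (ιz : ι * z * ι⁻¹ = z⁻¹) (ιι : ι * ι = t)
    (ιψ : ∀ x, ι * ψ x = ψ x * ι) (x : X) : u * ι * u⁻¹ ≠ ψ x := fun e => by
  have h0 : ι ∈ Nz z := (mem_Nz h.oz).mpr (.inr ιz)
  have wt : Commute w.1 t := h.wt'
  obtain ⟨k, hk, y, h1⟩ := h.nz (g := w * u⁻¹) ((mem_Nz h.oz).mpr (.inl (by
    conv_rhs => rw [← h.wa, ← h.ψa]
    rw [← ua]
    group))) (wt.mul_left (Commute.inv_left ut)) x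
  rw [← e, show w * u⁻¹ * (u * ι * u⁻¹) * (w * u⁻¹)⁻¹ = w * ι * w.1⁻¹ by group] at h1
  have h2 : w * ι * w.1⁻¹ * ι⁻¹ ∈ M := by
    simpa [mul_assoc] using mul_mem w.2 (conj_mem_of_mem_normalizer (h.nM (h.ιJ h0 (ιψ _))) (inv_mem w.2))
  have c1 : Commute (k * ψ y) z := Commute.mul_left (zc hk rfl).symm (h.zψ y)
  have h3 : w * ι * w.1⁻¹ * ι⁻¹ * z * (w * ι * w.1⁻¹ * ι⁻¹)⁻¹ = z⁻¹ := by
    rw [h1, mul_assoc _ ι⁻¹, mul_inv_rev _ ι⁻¹, ← mul_assoc, mul_assoc _ _ ι⁻¹⁻¹, show ι⁻¹ * z * ι⁻¹⁻¹ = z⁻¹ by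
      rw [mul_inv_eq_iff_eq_mul, inv_mul_eq_iff_eq_mul, ← mul_assoc, ← conj_inv, ιz, inv_inv], c1.inv_right.eq,
      mul_inv_cancel_right]
  have c2 : Commute ι t := ιι ▸ (Commute.refl ι).mul_right rfl
  have c3 : Commute (w * ι * w.1⁻¹ * ι⁻¹) t := ((wt.mul_left c2).mul_left wt.inv_left).mul_left c2.inv_left
  have h4 : k * ψ y * (k * ψ y) = ι * ι := by rw [← h1, conj_mul, ιι, wt.eq, mul_inv_cancel_right]
  have h5 : w * ι * w.1⁻¹ * ι⁻¹ * (w * ι * w.1⁻¹ * ι⁻¹) ∈ zpowers z := by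
    have c4 : Commute (ψ y) (ι⁻¹ * k * ι * k⁻¹) := zc (mul_mem (inv_conj_mem_of_mem_normalizer h0 hk) (inv_mem hk)) (h.zψ y)
    have := conj_mem_of_mem_normalizer (le_normalizer hk) (mul_mem (inv_conj_mem_of_mem_normalizer h0 hk) (inv_mem hk))
    rw [h1]
    convert this using 1
    calc _ = k * ψ y * (ι⁻¹ * k * ι) * (ι⁻¹ * ψ y) * ι⁻¹ := by group
      _ = k * ψ y * (ι⁻¹ * k * ι) * ψ y * (ι * ι)⁻¹ := by rw [(Commute.inv_left (ιψ y)).eq]; group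
      _ = k * (ψ y * (ι⁻¹ * k * ι * k⁻¹)) * (ψ y)⁻¹ * k⁻¹ := by rw [← h4]; group
      _ = _ := by rw [c4.eq]; group
  have h6 : Commute (w * ι * w.1⁻¹ * ι⁻¹) z := by
    rcases A9 (π ⟨_, h2⟩) (h.πN.mpr ((mem_Nz h.oz).mpr (.inr h3)))
      (by rw [← h.πt, ← map_mul, ← map_mul]; exact congrArg π (Subtype.ext c3))
      (by rw [← map_mul, h.πS]; exact h.QS (h.ZQ' h5)) with e1 | e1
    · exact h.Jc _ ((h.πk _).mp e1) _ h.zJ
    · rw [← h.πt, ← map_mul, h.πk] at e1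
      simpa using Commute.mul_left (h.Jc _ e1 _ h.zJ) (Commute.inv_left h.tz)
  exact h.zi (by rw [← h3, h6.eq, mul_inv_cancel_right])

theorem cl_le : closure {z, ψ aX} ≤ J ⊓ centralizer {t.1} := by
  rw [closure_le, Set.insert_subset_iff, Set.singleton_subset_iff, h.ψa]
  exact ⟨⟨h.zJ, mem_centralizer_singleton_iff.mpr h.tz.symm⟩, h.aJ, mem_centralizer_singleton_iff.mpr h.ta.symm⟩

theorem exists_KH0 : ∃ (t' z' m' w' : centralizer {t.1}) (ψ' : X →* centralizer {t.1}), KH0 t' z' m' w' ψ' ∧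
    t'.1 = t ∧ z'.1 = z ∧ ∀ x, (ψ' x).1 = ψ x := by
  have c {g : G} : g ∈ centralizer {t.1} ↔ g * t = t * g := mem_centralizer_singleton_iff
  let z' : centralizer {t.1} := ⟨z, c.mpr h.tz.symm⟩
  let ψ' : X →* centralizer {t.1} := ψ.codRestrict _ fun x => c.mpr (h.tψ x)
  have z1 : ∀ g, g ∈ zpowers z' ↔ g.1 ∈ zpowers z := fun g =>
    ⟨fun ⟨i, e⟩ => ⟨i, congrArg Subtype.val e⟩, fun ⟨i, e⟩ => ⟨i, Subtype.ext e⟩⟩
  have oz : orderOf z' = 3 := (orderOf_injective (centralizer {t.1}).subtype (subtype_injective _) z').symm.trans h.oz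
  have d1 : ∀ g, g ∈ closure {z', ψ' aX} → g.1 ∈ J := fun g hg => (h.cl_le (by
    have := mem_map_of_mem (centralizer {t.1}).subtype hg
    rwa [MonoidHom.map_closure, Set.image_pair] at this)).1
  have d2 : ∀ g : centralizer {t.1}, g.1 ∈ J → g ∈ closure {z', ψ' aX} := fun g hg => by
    obtain ⟨i, j, e⟩ := h.DJ hg (c.mp g.2).symm
    rw [← h.ψa] at e
    rw [← show z' ^ i * ψ' aX ^ j = g from Subtype.ext e]
    exact mul_mem (zpow_mem (subset_closure (by simp)) i) (zpow_mem (subset_closure (by simp)) j)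
  refine ⟨⟨t, c.mpr rfl⟩, z', ⟨m, c.mpr (by rw [← h.mm', mul_assoc])⟩, ⟨w, c.mpr h.wt'⟩, ψ',
    ⟨fun g => Subtype.ext (c.mp g.2), Subtype.ext h.ψt, oz, fun x => Subtype.ext (h.zψ x),
      fun x e => h.inj (h.ZQ' ((z1 _).mp e)), Subtype.ext h.mm', Subtype.ext h.minv.1,
      Subtype.ext (show m * ψ aX * m.1⁻¹ = (ψ aX)⁻¹ from h.ψa ▸ h.minv.2), Subtype.ext h.ww', Subtype.ext h.ψa.symm,
      fun g hg x => ?_, fun g e1 e2 => ?_, fun g e1 e2 e3 => ?_, fun g e => ?_, fun g e => ?_,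
      fun u ι _ e1 e2 e3 e4 x e => h.ex (c.mp u.2) (congrArg Subtype.val e1) (congrArg Subtype.val e2)
        (congrArg Subtype.val e3) (fun x => congrArg Subtype.val (e4 x)) x (congrArg Subtype.val e)⟩, rfl, rfl, fun _ => rfl⟩
  · obtain ⟨k, hk, y, e⟩ := h.nz ((mem_Nz h.oz).mpr (((mem_Nz oz).mp hg).imp (congrArg Subtype.val)
      (congrArg Subtype.val))) (c.mp g.2) x
    exact ⟨⟨k, c.mpr (zc hk h.tz).symm⟩, (z1 _).mpr hk, y, Subtype.ext e⟩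
  · have e3 : ∀ x, ψ x * g = g * ψ x := fun x => (congrArg Subtype.val (e2 x)).symm
    refine (h.CL h.aJ h.aQ (h.LN (h.ψL _)) h.y5 h.y1 h.ff (h.zψ _) h.fa h.tt' (h.tψ _).symm h.ti (c := g.1) ?_).imp
      (fun e => (z1 _).mpr (h.CQt e (c.mp g.2).symm)) fun e => (z1 _).mpr (h.CQt e (c.mp (g * _).2).symm)
    simp only [mem_centralizer_iff, Set.mem_insert_iff, Set.mem_singleton_iff, forall_eq_or_imp, forall_eq, ← h.ψa, e3,
      and_true]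
    exact (congrArg Subtype.val e1).symm
  · have e4 : g.1 * z * g.1⁻¹ = z⁻¹ := congrArg Subtype.val e1
    have e5 := (mem_Nz h.oz).mpr (.inr e4)
    exact h.zi (by rw [← e4, h.cz_of e5 ((h.inv5 (h.LN (h.ψL _)) h.y5 h.y1 e5 (by
      simp [← show g.1 * ψ hX = ψ hX * g from congrArg Subtype.val e2])).imp_left (h.iv_of le_rfl
      (fun _ => h.cj e5) ((show g.1 * g.1 = 1 from congrArg Subtype.val e3) ▸ one_mem _))), mul_inv_cancel_right])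
  · have := h.CZ1 (d1 _ e) (c.mp (g * z' * g⁻¹).2).symm
    rw [← h.ψa] at this
    exact this.imp (Or.imp Subtype.ext Subtype.ext) (Or.imp Subtype.ext Subtype.ext)
  · have := h.cy (mem_centralizer_singleton_iff.mpr (h.ψa ▸ congrArg Subtype.val e : g.1 * _ = _))
    exact ⟨d2 _ (conj_mem_of_mem_normalizer this h.zJ), d2 _ (conj_mem_of_mem_normalizer this (show ψ aX ∈ J from h.ψa ▸ h.aJ))⟩

end H2

end Cfsg.Agent.McL3
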