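import Cfsg.Agent.McL3.Setup
import Cfsg.Agent.M11.Count

/-! The action on the extraspecial group. -/

set_option autoImplicit false
set_option linter.unusedSectionVars false

namespace Cfsg.Agent.McL3

open Cfsg.Agent.Mat Cfsg.Agent.Local Subgroup
open scoped Pointwise commutatorElement

variable {G : Type*} [Group G] [Finite G]

/-- The elements commuting with `g` modulo `z`. -/
def Cm (z g : G) : Subgroup G where
  carrier := {q | q ∈ Nz z ∧ g * q * g⁻¹ * q⁻¹ ∈ zpowers z}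
  mul_mem' := fun {a b} ha hb => ⟨mul_mem ha.1 hb.1, by
    have := mul_mem ha.2 (conj_mem_of_mem_normalizer ha.1 hb.2)
    rwa [show g * a * g⁻¹ * a⁻¹ * (a * (g * b * g⁻¹ * b⁻¹) * a⁻¹) = g * (a * b) * g⁻¹ * (a * b)⁻¹ by group] at this⟩
  one_mem' := ⟨one_mem _, by simp⟩
  inv_mem' := fun {a} ha => ⟨inv_mem ha.1, by
    have := inv_conj_mem_of_mem_normalizer ha.1 (inv_mem ha.2)
    rwa [show a⁻¹ * (g * a * g⁻¹ * a⁻¹)⁻¹ * a = g * a⁻¹ * g⁻¹ * a⁻¹⁻¹ by group] at this⟩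

variable {z g q : G}

theorem Cm.symm (hg : g ∈ Nz z) (h : q ∈ Cm z g) : g ∈ Cm z q := ⟨hg, by
  have := inv_mem h.2
  rwa [show (g * q * g⁻¹ * q⁻¹)⁻¹ = q * g * q⁻¹ * g⁻¹ by group] at this⟩

theorem Cm.conj {x : G} (hx : x ∈ Nz z) (h : q ∈ Cm z g) : x * q * x⁻¹ ∈ Cm z (x * g * x⁻¹) :=
  ⟨mul_mem (mul_mem hx h.1) (inv_mem hx), by
    have := conj_mem_of_mem_normalizer hx h.2
    rwa [show x * (g * q * g⁻¹ * q⁻¹) * x⁻¹ = x * g * x⁻¹ * (x * q * x⁻¹) * (x * g * x⁻¹)⁻¹ * (x * q * x⁻¹)⁻¹ by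
      group] at this⟩

theorem Cm.of_comm (hq : q ∈ Nz z) (h : g * q = q * g) : q ∈ Cm z g := ⟨hq, by simp [h]⟩

theorem zc {k : G} (hk : k ∈ zpowers z) (h : g * z = z * g) : g * k = k * g := by
  obtain ⟨n, rfl⟩ := hk
  exact Commute.zpow_right h n

theorem Cm.cube (hz : orderOf z = 3) (h : q ∈ Cm z g) (hg : g * z = z * g) : g ^ 3 * q = q * g ^ 3 := by
  have h1 := zc h.2 hg
  have h2 : (g * q * g⁻¹ * q⁻¹) ^ 3 = 1 := by
    rw [← hz, ← Nat.card_zpowers]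
    exact congrArg Subtype.val (pow_card_eq_one' (x := (⟨_, h.2⟩ : zpowers z)))
  have h3 : g * q = g * q * g⁻¹ * q⁻¹ * q * g := by group
  generalize g * q * g⁻¹ * q⁻¹ = k at h1 h2 h3
  have h4 : ∀ x, g * (k * x) = k * (g * x) := fun x => by rw [← mul_assoc, h1, mul_assoc]
  have h5 : ∀ x, g * (q * x) = k * (q * (g * x)) := fun x => by rw [← mul_assoc, h3]; group
  calc g ^ 3 * q = g * (g * (g * (q * 1))) := by simp [pow_succ, mul_assoc]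
    _ = k ^ 3 * (q * g ^ 3) := by simp only [h4, h5]; simp [pow_succ, mul_assoc]
    _ = _ := by rw [h2, one_mul]

theorem cube_of {Y : Type*} [Group Y] {y : Y} {k : ℕ} (h1 : (((y ^ 2) ^ 2) ^ 3) ^ 5 = 1) (h2 : y ^ 3 ^ k = 1) :
    y ^ 3 = 1 := by
  rw [← pow_mul, ← pow_mul, ← pow_mul] at h1
  exact orderOf_dvd_iff_pow_eq_one.mp ((((by decide : Nat.Coprime 3 20).pow_left k).coprime_dvd_left
    (orderOf_dvd_of_pow_eq_one h2)).dvd_of_dvd_mul_left (orderOf_dvd_of_pow_eq_one h1))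

theorem card_le_of_comm {Q B : Subgroup G} (h : ∀ B ≤ Q, (∀ x ∈ B, ∀ y ∈ B, x * y = y * x) → Nat.card B ≤ 27)
    (hB : B ≤ Q) (h27 : 27 ≤ Nat.card B) (hc : ∀ x ∈ B, ∀ y ∈ B, x * y = y * x) (hq : q ∈ Q)
    (e : ∀ b ∈ B, q * b = b * q) : q ∈ B := by
  let C : Subgroup G := Q ⊓ (centralizer (B : Set G) ⊓ centralizer {q})
  have h1 : B ≤ C ⊓ centralizer (C : Set G) := fun b hb =>
    ⟨⟨hB hb, fun x hx => hc x hx b hb, mem_centralizer_singleton_iff.mpr (e b hb).symm⟩, fun x hx => (hx.2.1 b hb).symm⟩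
  exact (eq_of_le_of_card_ge h1 ((h (C ⊓ centralizer (C : Set G)) (inf_le_left.trans inf_le_left) fun x hx y hy =>
    (mem_inf.mp hy).2 x (mem_inf.mp hx).1).trans h27)).ge
    ⟨⟨hq, fun b hb => (e b hb).symm, mem_centralizer_singleton_iff.mpr rfl⟩,
      fun x hx => mem_centralizer_singleton_iff.mp hx.2.2⟩

namespace H0

variable {S Q J L M : Subgroup G} {ρ : L →* X} {π : M →* A} (h : H0 z S Q J L M ρ π)
include h

theorem z3 : z ^ 3 = 1 := h.oz ▸ pow_orderOf_eq_one z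

theorem z1 : z ≠ 1 := fun e => by simpa [e] using h.oz

theorem cardZ : Nat.card (zpowers z) = 3 := (Nat.card_zpowers z).trans h.oz

theorem S3 {s : G} (hs : s ∈ S) : ∃ k, s ^ 3 ^ k = 1 :=
  (h.syl.isPGroup ⟨s, hs⟩).imp fun _ => congrArg Subtype.val

theorem SL : S ≤ L := fun s hs => (h.S3 hs).elim (h.L3 s (h.nS (le_normalizer hs)))

theorem QL : Q ≤ L := h.QS.trans h.SL

theorem LN : L ≤ Nz z := fun g hg => (mem_Nz h.oz).mpr (.inl (mul_inv_eq_iff_eq_mul.mpr (h.Lz g hg)))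

theorem QN : Q ≤ Nz z := h.QL.trans h.LN

theorem ZQ' : zpowers z ≤ Q := zpowers_le.mpr h.zQ

theorem QQ {r : G} (hq : q ∈ Q) (hr : r ∈ Q) : r ∈ Cm z q := ⟨h.QN hr, h.cQ q hq r hr⟩

theorem cj {x : G} (hx : x ∈ Nz z) (hq : q ∈ Q) : x * q * x⁻¹ ∈ Q := conj_mem_of_mem_normalizer (h.nQ hx) hq

theorem card_le {B : Subgroup G} (hB : B ≤ Q) : Nat.card B ≤ 27 ∨ Nat.card B = 81 ∨ B = Q := by
  obtain ⟨i, hi, e⟩ := (Nat.dvd_prime_pow (m := 5) Nat.prime_three).mp (h.cardQ ▸ card_dvd_of_le hB :)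
  have : i = 5 → B = Q := fun e' => eq_of_le_of_card_ge hB (by rw [e, e', h.cardQ]; decide)
  interval_cases i <;> simp_all

theorem ab (B : Subgroup G) (hB : B ≤ Q) (hc : ∀ x ∈ B, ∀ y ∈ B, x * y = y * x) : Nat.card B ≤ 27 := by
  by_contra h0
  obtain ⟨q, hq, h1⟩ : ∃ q ∈ Q, ∀ b ∈ B, b * q = q * b → b ∈ zpowers z := by
    by_cases e : Q ≤ B
    · exact ⟨1, one_mem _, fun b hb _ => h.ZQ b (hB hb) fun r hr => hc r (e hr) b hb⟩
    obtain ⟨q, hq, h1⟩ := SetLike.not_le_iff_exists.mp e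
    refine ⟨q, hq, fun b hb e' => h.ZQ b (hB hb) fun r hr => mem_centralizer_singleton_iff.mp ?_⟩
    have h2 : B ≤ Q ⊓ centralizer {b} := fun x hx => ⟨hB hx, mem_centralizer_singleton_iff.mpr (hc x hx b hb)⟩
    have h3 := card_le_of_le h2
    rcases h.card_le (B := Q ⊓ centralizer {b}) inf_le_left with e | e | e
    · omega
    · rcases h.card_le hB with e1 | e1 | e1
      · omega
      · exact absurd ((eq_of_le_of_card_ge h2 (by omega)).ge ⟨hq, mem_centralizer_singleton_iff.mpr e'.symm⟩) h1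
      · exact absurd (e1 ▸ hq) h1
    · exact (e.ge hr).2
  have h2 := M11.card_inf_centralizer_mul B q
  have h3 : Nat.card ↥(B ⊓ centralizer {q}) ≤ 3 :=
    (card_le_of_le (show B ⊓ centralizer {q} ≤ zpowers z from fun b hb =>
      h1 b hb.1 (mem_centralizer_singleton_iff.mp hb.2))).trans h.cardZ.le
  have h4 : {w | ∃ r ∈ B, r * q * r⁻¹ = w}.ncard ≤ 3 := by
    rw [← h.cardZ, ← Nat.card_coe_set_eq]
    refine Nat.card_le_card_of_injective (fun w => ⟨w.1 * q⁻¹, ?_⟩) fun a b e => Subtype.ext (by simpa using e)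
    obtain ⟨r, hr, e⟩ := w.2
    exact e ▸ h.cQ r (hB hr) q hq
  have := Nat.mul_le_mul h3 h4
  omega

theorem ρ3 {s : L} (hs : s.1 ∈ S) : ρ s ^ 3 = 1 := by
  obtain ⟨k, hk⟩ := h.S3 hs
  exact cube_of (X2 _).2.2.1 (k := k) (by rw [← map_pow, show s ^ 3 ^ k = 1 from Subtype.ext hk, map_one])

theorem ρS {a s : L} (ha : a.1 ∈ S) (h1 : a.1 ∉ Q) (hs : s.1 ∈ S) : ρ s = 1 ∨ ρ s = ρ a ∨ ρ s = (ρ a)⁻¹ :=
  ((X3 _ (h.ρ3 ha) (mt (h.ρk a).mp h1)).1 _ (h.ρ3 hs)).2 (by rw [← map_mul]; exact h.ρ3 (mul_mem ha hs))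

theorem SQ {a s : G} (ha : a ∈ S) (h1 : a ∉ Q) (hs : s ∈ S) : ∃ i : ℤ, s * a ^ i ∈ Q := by
  rcases h.ρS (a := ⟨a, h.SL ha⟩) (s := ⟨s, h.SL hs⟩) ha h1 hs with e | e | e
  exacts [⟨0, (h.ρk (⟨s, h.SL hs⟩ * ⟨a, h.SL ha⟩ ^ (0 : ℤ))).mp (by simp [e])⟩,
    ⟨-1, (h.ρk (⟨s, h.SL hs⟩ * ⟨a, h.SL ha⟩ ^ (-1 : ℤ))).mp (by simp [e])⟩,
    ⟨1, (h.ρk (⟨s, h.SL hs⟩ * ⟨a, h.SL ha⟩ ^ (1 : ℤ))).mp (by rw [map_mul, zpow_one, e, inv_mul_cancel])⟩]

theorem exJ : ∃ a ∈ J, a ∉ Q := SetLike.not_le_iff_exists.mp fun e => by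
  have := h.ab J e h.Jc
  rw [h.cardJ] at this
  omega

theorem card_le3 {B : Subgroup G} (hB : B ≤ S) : Nat.card B ≤ 3 * Nat.card ↥(Q ⊓ B) := by
  obtain ⟨a, ha, h1⟩ := h.exJ
  let f := ρ.comp (inclusion (hB.trans h.SL))
  have h2 : Q.subgroupOf B = f.ker := ext fun x => (h.ρk (inclusion (hB.trans h.SL) x)).symm
  have h3 : f.range ≤ zpowers (ρ ⟨a, h.SL (h.JS ha)⟩) := by
    rintro - ⟨x, rfl⟩
    rcases h.ρS (a := ⟨a, h.SL (h.JS ha)⟩) (s := inclusion (hB.trans h.SL) x) (h.JS ha) h1 (hB x.2) with e | e | e <;>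
      simp [f, e]
  rw [← card_inf_mul_relIndex Q B, relIndex, h2, index_ker, mul_comm]
  refine Nat.mul_le_mul_right _ ((card_le_of_le h3).trans ?_)
  rw [Nat.card_zpowers]
  exact Nat.le_of_dvd (by decide) (orderOf_dvd_of_pow_eq_one (h.ρ3 (h.JS ha)))

theorem zJ : z ∈ J := by
  let C : Subgroup G := S ⊓ centralizer (J : Set G)
  have h1 : J ≤ C ⊓ centralizer (C : Set G) := fun b hb =>
    ⟨⟨h.JS hb, fun x hx => h.Jc x hx b hb⟩, fun x hx => (hx.2 b hb).symm⟩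
  have h2 := h.card_le3 (B := C ⊓ centralizer (C : Set G)) (inf_le_left.trans inf_le_left)
  have h3 := h.ab (Q ⊓ (C ⊓ centralizer (C : Set G))) inf_le_left fun x hx y hy => hy.2.2 x hx.2.1
  exact (eq_of_le_of_card_ge h1 (by rw [h.cardJ]; omega)).ge
    ⟨⟨h.QS h.zQ, fun x hx => h.Lz x (h.SL (h.JS hx))⟩, fun x hx => h.Lz x (h.SL hx.1)⟩

theorem CQ (hg : ∀ q ∈ Q, g * q = q * g) : g ∈ Q := by
  obtain ⟨R, r1, r2, r3, r4⟩ := h.con z h.zJ h.z1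
  have h1 : centralizer {z} ≤ Nz z := fun x hx =>
    (mem_Nz h.oz).mpr (.inl (mul_inv_eq_iff_eq_mul.mpr (mem_centralizer_singleton_iff.mp hx)))
  have h2 := h.maxQ R r1 (r2.trans h1) (le_trans (fun x hx => mem_normalizer_of_conj_mem fun c hc =>
    mem_centralizer_singleton_iff.mpr (by
      obtain ⟨k, hk⟩ := inv_conj_mem_of_mem_normalizer hx (mem_zpowers z)
      have := (Commute.zpow_right (mem_centralizer_singleton_iff.mp hc) k).eq
      rw [show z ^ k = _ from hk] at this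
      calc _ = x * (c * (x⁻¹ * z * x)) * x⁻¹ := by group
        _ = _ := by rw [this]; group)) r3)
  exact h2 (r4 fun r hr => (hg r (h2 hr)).symm)

end H0

end Cfsg.Agent.McL3
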