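import Cfsg.Agent.McL3.QLoc

/-! Elements acting on the extraspecial group. -/

set_option autoImplicit false
set_option linter.unusedSectionVars false

namespace Cfsg.Agent.McL3

open Cfsg.Agent.Mat Cfsg.Agent.Local Subgroup
open scoped Pointwise

variable {G : Type*} [Group G] [Finite G] {z g q : G}

theorem Cm.mul {g' : G} (hg : g ∈ Nz z) (hg' : g' ∈ Nz z) (h : q ∈ Cm z g) (h' : q ∈ Cm z g') : q ∈ Cm z (g * g') :=
  Cm.symm h.1 (mul_mem (Cm.symm hg h) (Cm.symm hg' h'))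

theorem Cm.zpow (hg : g ∈ Nz z) (h : q ∈ Cm z g) (n : ℤ) : q ∈ Cm z (g ^ n) := Cm.symm h.1 (zpow_mem (Cm.symm hg h) n)

theorem Cm.pow (hg : g ∈ Nz z) (h : q ∈ Cm z g) (n : ℕ) : q ∈ Cm z (g ^ n) := Cm.symm h.1 (pow_mem (Cm.symm hg h) n)

theorem ncard_diff {W C : Subgroup G} (h : C ≤ W) :
    ((W : Set G) \ C).ncard + Nat.card C = Nat.card W := Set.ncard_sdiff_add_ncard_of_subset h

theorem mod5 {W : Subgroup G} {y : G} (hy : y ^ 5 = 1) (hW : ∀ u ∈ W, y * u * y⁻¹ ∈ W) :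
    Nat.card W % 5 = Nat.card ↥(W ⊓ centralizer {y}) % 5 := by
  have h1 := ncard_diff (inf_le_left : W ⊓ centralizer {y} ≤ W)
  have h2 : 5 ∣ ((W : Set G) \ ↑(W ⊓ centralizer {y})).ncard := by
    by_contra h0
    obtain ⟨u, hu, e⟩ := M11.exists_commute_of_not_dvd Nat.prime_five hy
      (X := (W : Set G) \ ↑(W ⊓ centralizer {y})) (fun u hu => ⟨hW u hu.1, fun e => hu.2
      ⟨hu.1, mem_centralizer_singleton_iff.mpr (by
        have := mem_centralizer_singleton_iff.mp e.2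
        calc _ = y⁻¹ * (y * u * y⁻¹ * y) * y := by group
          _ = _ := by rw [this]; group)⟩⟩) h0
    exact hu.2 ⟨hu.1, mem_centralizer_singleton_iff.mpr e.eq.symm⟩
  omega

theorem sq_mem {H : Subgroup G} (h3 : g ^ 3 ∈ H) (h2 : g * g ∈ H) : g ∈ H := by
  simpa [pow_succ, mul_assoc] using mul_mem (inv_mem h2) h3

theorem conj3 {s s' : G} (h1 : s * s = 1) (h2 : s' * s' = 1) (h3 : (s * s') ^ 3 = 1) :
    s * s' * s * (s * s')⁻¹ = s' := by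
  have e1 : s * s' * s * (s' * (s * s')) = 1 := by rw [← h3]; simp [pow_succ, mul_assoc]
  have e2 : s' * (s * s') * (s' * (s * s')) = 1 := by
    calc _ = s' * (s * (s' * s') * s) * s' := by group
      _ = 1 := by rw [h2, mul_one, h1, mul_one, h2]
  exact mul_inv_eq_iff_eq_mul.mpr (mul_right_cancel (e1.trans e2.symm))

/-- `c` inverts `B` modulo `z`. -/
def Iv (z : G) (B : Subgroup G) (c : G) : Prop := ∀ q ∈ B, c * q * c⁻¹ * q ∈ zpowers z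

theorem Iv.mul {B : Subgroup G} {c c' : G} (hc : c ∈ Nz z) (hB : B ≤ Nz z) (h : Iv z B c) (h' : Iv z B c') :
    B ≤ Cm z (c * c') := fun q hq => ⟨hB hq, by
  have := mul_mem (conj_mem_of_mem_normalizer hc (h' q hq)) (h q⁻¹ (inv_mem hq))
  rwa [show c * (c' * q * c'⁻¹ * q) * c⁻¹ * (c * q⁻¹ * c⁻¹ * q⁻¹) = c * c' * q * (c * c')⁻¹ * q⁻¹ by group] at this⟩

namespace H0

variable {S Q J L M : Subgroup G} {ρ : L →* X} {π : M →* A} (h : H0 z S Q J L M ρ π)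
include h

theorem dich {W : Subgroup G} (hW : W ≤ Q) (hz : z ∈ W) (h3 : Nat.card W % 5 = 3) : W ≤ zpowers z ∨ W = Q := by
  obtain ⟨i, hi, e⟩ := (Nat.dvd_prime_pow (m := 5) Nat.prime_three).mp (h.cardQ ▸ card_dvd_of_le hW :)
  have h1 : i = 5 → W = Q := fun e' => eq_of_le_of_card_ge hW (by rw [e, e', h.cardQ]; decide)
  have h2 : i = 1 → W ≤ zpowers z := fun e' =>
    (eq_of_le_of_card_ge (zpowers_le.mpr hz) (by rw [e, e', h.cardZ]; decide)).ge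
  interval_cases i <;> simp_all

theorem fpf {y : G} (hy : y ∈ Nz z) (h5 : y ^ 5 = 1) (h1 : y ≠ 1) : Q ⊓ centralizer {y} ≤ zpowers z := by
  have h2 := mod5 h5 fun u hu => h.cj hy hu
  rw [h.cardQ] at h2
  refine (h.dich inf_le_left ⟨h.zQ, mem_centralizer_singleton_iff.mpr
    (comm_of_odd h.oz hy (by decide) h5).symm⟩ h2.symm).resolve_right fun e => h1 ?_
  have h3 := h.Q3 y (h.CQ fun q hq => (mem_centralizer_singleton_iff.mp (e.ge hq).2).symm)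
  calc y = y ^ 5 * y := by rw [h5, one_mul]
    _ = (y ^ 3) ^ 2 := by group
    _ = 1 := by rw [h3, one_pow]

theorem six (h5 : g ^ 5 ∈ Q) : (g ^ 6) ^ 5 = 1 := by
  rw [← pow_mul, show 6 * 5 = 5 * 3 * 2 from rfl, pow_mul, pow_mul, h.Q3 _ h5, one_pow]

theorem fpf5 (hg : g ∈ L) (h5 : g ^ 5 ∈ Q) (h1 : g ∉ Q) : Q ⊓ Cm z g ≤ zpowers z := fun q hq =>
  h.fpf (pow_mem (h.LN hg) 6) (h.six h5) (fun e => h1 (by
    rw [pow_succ, mul_eq_one_iff_eq_inv] at e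
    exact inv_mem_iff.mp (e ▸ h5))) ⟨hq.1, mem_centralizer_singleton_iff.mpr (by
      simpa only [← pow_mul] using (Cm.cube h.oz (Cm.pow (h.LN hg) hq.2 2) (h.Lz _ (pow_mem hg 2))).symm)⟩

theorem cmQ {r : G} (hg : g ∈ Nz z) (hr : r ∈ Q) (hq : q ∈ Q) (e : q ∈ Cm z g) : q ∈ Cm z (r * g) :=
  Cm.mul (h.QN hr) hg (h.QQ hr hq) e

theorem inv5 {y c : G} (hy : y ∈ Nz z) (h5 : y ^ 5 = 1) (h1 : y ≠ 1) (hc : c ∈ Nz z) (e : y * c * y⁻¹ * c⁻¹ ∈ Q) :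
    Q ⊓ Cm z c ≤ zpowers z ∨ Q ≤ Cm z c := by
  have h2 := mod5 (W := Q ⊓ Cm z c) h5 fun u hu => ⟨h.cj hy hu.1, by
    simpa [mul_assoc] using
      h.cmQ (mul_mem (mul_mem hy hc) (inv_mem hy)) (inv_mem e) (h.cj hy hu.1) (Cm.conj hy hu.2)⟩
  have h3 : z ∈ Q ⊓ Cm z c := ⟨h.zQ, h.QN h.zQ, mul_mem (conj_mem_of_mem_normalizer hc (mem_zpowers z))
    (inv_mem (mem_zpowers z))⟩
  rw [show Q ⊓ Cm z c ⊓ centralizer {y} = zpowers z from le_antisymm (fun x hx => h.fpf hy h5 h1 ⟨hx.1.1, hx.2⟩)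
    (zpowers_le.mpr ⟨h3, mem_centralizer_singleton_iff.mpr (comm_of_odd h.oz hy (by decide) h5).symm⟩), h.cardZ] at h2
  exact (h.dich inf_le_left h3 h2).imp_right fun e => e.ge.trans inf_le_right

theorem le27' {c x : G} (hc : c ∈ L) (hx : x ∈ L) (h5 : ((c * (x * c * x⁻¹)) ^ 2) ^ 5 ∈ Q)
    (h1 : (c * (x * c * x⁻¹)) ^ 2 ∉ Q) : Nat.card ↥(Q ⊓ Cm z c) ≤ 27 := by
  by_contra h0
  have hc' := mul_mem (mul_mem hx hc) (inv_mem hx)
  have h2 : Nat.card ↥(Q ⊓ Cm z c) ≤ Nat.card ↥(Q ⊓ Cm z (x * c * x⁻¹)) :=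
    Nat.card_le_card_of_injective (fun u => ⟨x * u * x⁻¹, h.cj (h.LN hx) u.2.1, Cm.conj (h.LN hx) u.2.2⟩) fun u v e =>
      Subtype.ext (by simpa using congrArg Subtype.val e)
  generalize x * c * x⁻¹ = d at h5 h1 hc' h2
  have h3 : zpowers z ≤ Q ⊓ Cm z d := zpowers_le.mpr ⟨h.zQ, Cm.of_comm (h.QN h.zQ) (h.Lz _ hc')⟩
  have h4 := card_sup_mul_card_inf (A := Q ⊓ Cm z c) (N := Q ⊓ Cm z d) fun u hu =>
    mem_normalizer_of_conj_mem fun v hv => by simpa using mul_mem (h3 (h.cQ u hu.1 v hv.1)) hv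
  have h8 := card_le_of_le (sup_le inf_le_left inf_le_left : Q ⊓ Cm z d ⊔ Q ⊓ Cm z c ≤ Q)
  have h6 := card_le_of_le (show Q ⊓ Cm z d ⊓ (Q ⊓ Cm z c) ≤ zpowers z from fun u hu =>
    h.fpf5 (pow_mem (mul_mem hc hc') 2) h5 h1 ⟨hu.1.1, Cm.pow (h.LN (mul_mem hc hc'))
      (Cm.mul (h.LN hc) (h.LN hc') hu.2.2 hu.1.2) 2⟩)
  have h7 : 81 ≤ Nat.card ↥(Q ⊓ Cm z c) := by
    rcases h.card_le (B := Q ⊓ Cm z c) inf_le_left with e | e | e
    exacts [absurd e h0, e.ge, by rw [e, h.cardQ]; decide]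
  rw [h.cardQ] at h8
  rw [h.cardZ] at h6
  have h8 := Nat.mul_le_mul h8 h6
  have h9 := Nat.mul_le_mul (h7.trans h2) h7
  omega

theorem le27 {c : L} (h3 : ρ c ^ 3 = 1) (h1 : ρ c ≠ 1) : Nat.card ↥(Q ⊓ Cm z c) ≤ 27 := by
  obtain ⟨x, x1, x2⟩ := (X3 _ h3 h1).2
  obtain ⟨x, rfl⟩ := h.ρs x
  rw [← map_inv, ← map_mul, ← map_mul, ← map_mul, ← map_pow] at x1 x2
  exact h.le27' c.2 x.2 ((h.ρk (((c * (x * c * x⁻¹)) ^ 2) ^ 5)).mp (by rwa [map_pow])) 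
    (mt (h.ρk ((c * (x * c * x⁻¹)) ^ 2)).mpr x2)

theorem CV {c : G} (hc : c * z = z * c) (e : Q ≤ Cm z c) : c ∈ Q := by
  have h1 := h.CQ fun q hq => Cm.cube h.oz (e hq) hc
  have h2 : c ∈ L := h.L3 c ((mem_Nz h.oz).mpr (.inl (mul_inv_eq_iff_eq_mul.mpr hc))) 2
    (by rw [pow_two, pow_mul, h.Q3 _ h1])
  by_contra h3
  have := h.le27 (c := ⟨c, h2⟩) (by rw [← map_pow]; exact (h.ρk _).mpr h1) (mt (h.ρk _).mp h3)
  rw [inf_eq_left.mpr e, h.cardQ] at this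
  omega

theorem cardA : Nat.card ↥(Q ⊓ J) = 27 := by
  have h1 := h.card_le3 h.JS
  have h2 := h.ab (Q ⊓ J) inf_le_left fun x hx y hy => h.Jc x hx.2 y hy.2
  rw [h.cardJ] at h1
  omega

theorem WA {s : G} (hs : s ∈ S) (h1 : s ∉ Q) (hq : q ∈ Q) (e : q ∈ Cm z s) : q ∈ J := by
  obtain ⟨a, ha, h2⟩ := h.exJ
  obtain ⟨i, hi⟩ := h.SQ hs h1 (h.JS ha)
  have hs' := h.LN (h.SL hs)
  have h3 : Q ⊓ J = Q ⊓ Cm z a := eq_of_le_of_card_ge (fun x hx => ⟨hx.1, Cm.of_comm (h.QN hx.1) (h.Jc a ha x hx.2)⟩)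
    (h.cardA ▸ h.le27 (c := ⟨a, h.SL (h.JS ha)⟩) (h.ρ3 (h.JS ha)) (mt (h.ρk _).mp h2))
  exact (h3.ge ⟨hq, by simpa using h.cmQ (zpow_mem hs' (-i)) hi hq (Cm.zpow hs' e _)⟩).2

theorem CA (hq : q ∈ Q) (e : ∀ b ∈ Q ⊓ J, q * b = b * q) : q ∈ J :=
  (card_le_of_comm h.ab inf_le_left h.cardA.ge (fun x hx y hy => h.Jc x hx.2 y hy.2) hq e).2

theorem UJ {B : Subgroup G} (hB : B ≤ S) (hc : ∀ x ∈ B, ∀ y ∈ B, x * y = y * x) (h81 : 81 ≤ Nat.card B) : B = J := by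
  obtain ⟨a, ha, h2⟩ := h.exJ
  obtain ⟨s, hs, h1⟩ : ∃ s ∈ B, s ∉ Q := SetLike.not_le_iff_exists.mp fun e => by
    have := h.ab B e hc
    omega
  have h3 := h.card_le3 hB
  have h4 : Q ⊓ B = Q ⊓ J := eq_of_le_of_card_ge
    (fun x hx => ⟨hx.1, h.WA (hB hs) h1 hx.1 (Cm.of_comm (h.QN hx.1) (hc s hs x hx.2))⟩) (by rw [h.cardA]; omega)
  refine eq_of_le_of_card_ge (fun x hx => ?_) (h.cardJ ▸ h81)
  obtain ⟨i, hi⟩ := h.SQ (h.JS ha) h2 (hB hx)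
  simpa using mul_mem (h.CA hi fun b hb => ((show Commute x b from hc x hx b (h4.ge hb).2).mul_left
    ((show Commute a b from h.Jc a ha b hb.2).zpow_left i)).eq) (zpow_mem ha (-i))

theorem NJ (e : ∀ b ∈ J, g * b * g⁻¹ ∈ S) : g ∈ normalizer (J : Set G) :=
  mem_normalizer_iff_conj_smul_eq.mpr (h.UJ (by rintro - ⟨b, hb, rfl⟩; exact e b hb)
    (by
      rintro - ⟨b, hb, rfl⟩ - ⟨c, hc, rfl⟩
      show g * b * g⁻¹ * (g * c * g⁻¹) = g * c * g⁻¹ * (g * b * g⁻¹)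
      rw [conj_mul, conj_mul, h.Jc b hb c hc])
    (by rw [← h.cardJ]; exact (card_map_of_injective (MulAut.conj g).injective).ge))

theorem NS {a : G} (hg : g ∈ Nz z) (ha : a ∈ S) (h1 : a ∉ Q) (e : g * a * g⁻¹ ∈ S) : g ∈ normalizer (S : Set G) :=
  mem_normalizer_of_conj_mem fun s hs => by
    obtain ⟨i, hi⟩ := h.SQ ha h1 hs
    have := mul_mem (h.QS (h.cj hg hi)) (zpow_mem e (-i))
    rwa [conj_zpow, show g * (s * a ^ i) * g⁻¹ * (g * a ^ (-i) * g⁻¹) = g * s * g⁻¹ by group] at this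

theorem SJ : normalizer (S : Set G) ≤ normalizer (J : Set G) := fun _ hg =>
  h.NJ fun _ hb => conj_mem_of_mem_normalizer hg (h.JS hb)

theorem SM : S ≤ M := fun s hs => (h.S3 hs).elim (h.M3 s (h.SJ (le_normalizer hs)))

theorem JM : J ≤ M := h.JS.trans h.SM

theorem NZJ (hg : g ∈ Nz z) (e : g ∈ normalizer (J : Set G)) : g ∈ normalizer (S : Set G) :=
  let ⟨_, ha, h1⟩ := h.exJ
  h.NS hg (h.JS ha) h1 (h.JS (conj_mem_of_mem_normalizer e ha))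

end H0

end Cfsg.Agent.McL3
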