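import Cfsg.Agent.McL3.QLoc2

/-! The symplectic form of the extraspecial group. -/

set_option autoImplicit false
set_option linter.unusedSectionVars false

namespace Cfsg.Agent.McL3

open Cfsg.Agent.Mat Cfsg.Agent.Local Subgroup
open scoped Pointwise

variable {G : Type*} [Group G] [Finite G] {z g q r s c : G}

/-- The commutator. -/
def br (q r : G) : G := q * r * q⁻¹ * r⁻¹

theorem br_conj (c q r : G) : br (c * q * c⁻¹) (c * r * c⁻¹) = c * br q r * c⁻¹ := by unfold br; group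

theorem br_swap (q r : G) : br r q = (br q r)⁻¹ := by unfold br; group

theorem br_one : br q r = 1 ↔ q * r = r * q := by
  rw [br, mul_inv_eq_one, mul_inv_eq_iff_eq_mul]

namespace H0

variable {S Q J L M : Subgroup G} {ρ : L →* X} {π : M →* A} (h : H0 z S Q J L M ρ π)
include h

theorem zcq {k : G} (hk : k ∈ zpowers z) (hq : q ∈ Q) : q * k = k * q := zc hk (h.Lz q (h.QL hq))

theorem brZ (hq : q ∈ Q) (hr : r ∈ Q) : br q r ∈ zpowers z := h.cQ q hq r hr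

theorem br_mul (hq : q ∈ Q) (hs : s ∈ Q) (hr : r ∈ Q) : br (q * s) r = br s r * br q r := by
  calc _ = q * br s r * q⁻¹ * br q r := by unfold br; group
    _ = _ := by rw [h.zcq (h.brZ hs hr) hq, mul_inv_cancel_right]

theorem br_inv (hq : q ∈ Q) (hr : r ∈ Q) : br q⁻¹ r = (br q r)⁻¹ :=
  eq_inv_of_mul_eq_one_left (by rw [← h.br_mul hq (inv_mem hq) hr, mul_inv_cancel, br_one, one_mul, mul_one])

theorem br_z {k : G} (hk : k ∈ zpowers z) (hq : q ∈ Q) (hr : r ∈ Q) : br (k * q) r = br q r := by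
  rw [h.br_mul (h.ZQ' hk) hq hr, br_one.mpr (h.zcq hk hr).symm, mul_one]

theorem br_cm (hq : q ∈ Q) (hr : r ∈ Q) (e : q ∈ Cm z c) : br (c * q * c⁻¹) r = br q r := by
  rw [← h.br_z e.2 hq hr, inv_mul_cancel_right]

theorem br_iv (hq : q ∈ Q) (hr : r ∈ Q) (e : c * q * c⁻¹ * q ∈ zpowers z) : br (c * q * c⁻¹) r = (br q r)⁻¹ := by
  rw [← h.br_inv hq hr, ← h.br_z e (inv_mem hq) hr, mul_inv_cancel_right]

theorem br_fix (hc : c * z = z * c) (hq : q ∈ Q) (hr : r ∈ Q) : br (c * q * c⁻¹) (c * r * c⁻¹) = br q r := by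
  rw [br_conj, zc (h.brZ hq hr) hc, mul_inv_cancel_right]

theorem iv_of {B : Subgroup G} (hB : B ≤ Q) (hn : ∀ b ∈ B, c * b * c⁻¹ ∈ B) (h2 : c * c ∈ Q)
    (e : B ⊓ Cm z c ≤ zpowers z) : Iv z B c := fun q hq => e ⟨mul_mem (hn q hq) hq, h.QN (hB (mul_mem (hn q hq) hq)), by
  have := mul_mem (h.cQ _ h2 q (hB hq)) (h.cQ q (hB hq) _ (hB (hn q hq)))
  rwa [show c * c * q * (c * c)⁻¹ * q⁻¹ * (q * (c * q * c⁻¹) * q⁻¹ * (c * q * c⁻¹)⁻¹) =
    c * (c * q * c⁻¹ * q) * c⁻¹ * (c * q * c⁻¹ * q)⁻¹ by group] at this⟩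

theorem of_iv {B : Subgroup G} (hB : B ≤ Q) (e : Iv z B c) (hq : q ∈ B) (e' : q ∈ Cm z c) : q ∈ zpowers z :=
  sq_mem (h.Q3 q (hB hq) ▸ one_mem _) (by simpa [mul_assoc] using mul_mem (inv_mem e'.2) (e q hq))

theorem cz_of (hc : c ∈ Nz z) (e : Iv z Q c ∨ Q ≤ Cm z c) : c * z = z * c := by
  obtain ⟨q, hq, r, hr, h1⟩ : ∃ q ∈ Q, ∃ r ∈ Q, br q r ≠ 1 := by
    by_contra! h0
    have := h.ab Q le_rfl fun q hq r hr => br_one.mp (h0 q hq r hr)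
    rw [h.cardQ] at this
    omega
  have h2 : c * br q r * c⁻¹ = br q r := by
    rw [← br_conj]
    rcases e with e | e
    · rw [h.br_iv hq (h.cj hc hr) (e q hq), ← br_swap, h.br_iv hr hq (e r hr), ← br_swap]
    · rw [h.br_cm hq (h.cj hc hr) (e hq), br_swap, h.br_cm hr hq (e hr), ← br_swap]
  rcases (Char.mem_zpowers_three h.oz (h.cQ q hq r hr)).resolve_left h1 with e | e <;> rw [show br q r = _ from e] at h2
  exacts [mul_inv_eq_iff_eq_mul.mp h2, mul_inv_eq_iff_eq_mul.mp (by rwa [← conj_inv, inv_inj] at h2)]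

theorem cjA (hc : c ∈ Nz z) (hJ : c ∈ normalizer (J : Set G)) : ∀ b ∈ Q ⊓ J, c * b * c⁻¹ ∈ Q ⊓ J := fun _ hb =>
  ⟨h.cj hc hb.1, conj_mem_of_mem_normalizer hJ hb.2⟩

theorem fpf_t {t : G} (ht : t ∈ Nz z) (hz : t * z = z * t)
    (e : ∀ q ∈ Q, t * q * t⁻¹ * q ∈ J) : Q ⊓ Cm z t ≤ zpowers z := fun b hb => by
  have h1 : b ∈ J := sq_mem (h.Q3 b hb.1 ▸ one_mem _) (by
    simpa [mul_assoc] using mul_mem (inv_mem (zpowers_le.mpr h.zJ hb.2.2)) (e b hb.1))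
  refine h.ZQ b hb.1 fun q hq => br_one.mp ?_
  have h2 := h.br_fix hz hb.1 hq
  have h3 := h.cj ht hq
  rw [h.br_cm hb.1 h3 hb.2, br_swap, ← mul_inv_cancel_right (t * q * t⁻¹) q, h.br_mul (mul_mem h3 hq) (inv_mem hq) hb.1,
    br_one.mpr (h.Jc _ (e q hq) b h1), mul_one, h.br_inv hq hb.1, inv_inv, br_swap q, eq_inv_iff_mul_eq_one] at h2
  have h4 := h.Q3 _ (h.ZQ' (h.cQ q hq b hb.1))
  rwa [pow_three', show q * b * q⁻¹ * b⁻¹ = br q b from rfl, h2, one_mul] at h4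

theorem exists_y : ∃ y ∈ L, y ^ 5 = 1 ∧ y ≠ 1 := by
  obtain ⟨y, hy⟩ := h.ρs hX
  have h5 : y.1 ^ 5 ∈ Q := (h.ρk (y ^ 5)).mp (by rw [map_pow, hy, X1.2.1])
  refine ⟨_, pow_mem y.2 6, h.six h5, fun e => X1.2.2.2.2.2.1 ?_⟩
  have := map_pow ρ y (5 + 1)
  rwa [show y ^ (5 + 1) = 1 from Subtype.ext e, map_one, hy, pow_succ, X1.2.1, one_mul, eq_comm] at this

theorem t_mem {t : G} (ht : t ∈ Nz z) (hz : t * z = z * t) (e : Iv z Q t) : ∃ ht : t ∈ L, ρ ⟨t, ht⟩ = tX := by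
  obtain ⟨y, hy, y5, y1⟩ := h.exists_y
  obtain ⟨s, hs⟩ := h.ρs tX
  have h1 : ρ s * ρ s = 1 := by rw [hs, ← pow_two, X1.2.2.1]
  have h2 := (h.inv5 (h.LN hy) y5 y1 (h.LN s.2) ((h.ρk (⟨y, hy⟩ * s * ⟨y, hy⟩⁻¹ * s⁻¹)).mp
    (by simp only [map_mul, map_inv, hs, (X2 _).1, mul_inv_cancel_right, mul_inv_cancel]))).resolve_right fun e =>
      X1.2.2.2.2.2.2.1 (hs ▸ (h.ρk s).mpr (h.CV (h.Lz _ s.2) e))
  have h3 := h.CV (by rw [mul_assoc, h.Lz _ s.2, ← mul_assoc, hz, mul_assoc]) (Iv.mul ht h.QN e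
    (h.iv_of le_rfl (fun _ => h.cj (h.LN s.2)) ((h.ρk (s * s)).mp (by rw [map_mul, h1])) h2))
  have h4 : t ∈ L := by simpa using mul_mem (h.QL h3) (inv_mem s.2)
  have h5 := (h.ρk (⟨t, h4⟩ * s)).mpr h3
  rw [map_mul, ← h1] at h5
  exact ⟨h4, hs ▸ mul_right_cancel h5⟩

theorem PL {e : G} (he : e ∈ Nz z) (hz : e * z = z * e) (h2 : e * e ∈ Q) (hA : Q ⊓ J ≤ Cm z e) : e ∈ Q :=
  h.CV hz fun q hq => ⟨h.QN hq, by
    have h1 := mul_mem (h.cj he hq) (inv_mem hq)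
    have h3 := h.CA h1 fun b hb => br_one.mp (by
      have h4 := h.br_fix hz hb.1 hq
      rw [h.br_cm hb.1 (h.cj he hq) (hA hb), br_swap, br_swap q, inv_inj] at h4
      rw [h.br_mul (h.cj he hq) (inv_mem hq) hb.1, h.br_inv hq hb.1, h4, inv_mul_cancel])
    refine sq_mem (h.Q3 _ h1 ▸ one_mem _) ?_
    have := mul_mem (inv_mem (hA ⟨h1, h3⟩).2) (h.cQ _ h2 q hq)
    rwa [show (e * (e * q * e⁻¹ * q⁻¹) * e⁻¹ * (e * q * e⁻¹ * q⁻¹)⁻¹)⁻¹ * (e * e * q * (e * e)⁻¹ * q⁻¹) =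
      e * q * e⁻¹ * q⁻¹ * (e * q * e⁻¹ * q⁻¹) by group] at this⟩

theorem WL {e : G} (he : e ∈ Nz z) (heJ : e ∈ normalizer (J : Set G)) (h2 : e * e ∈ Q) (hc : c ∈ Nz z)
    (hcJ : c ∈ normalizer (J : Set G)) (ce : c * e = e * c) (hi : Iv z Q (c * c)) :
    Iv z (Q ⊓ J) e ∨ Q ⊓ J ≤ Cm z e := by
  by_cases h0 : Q ⊓ J ⊓ Cm z e ≤ zpowers z
  · exact .inl (h.iv_of inf_le_left (h.cjA he heJ) h2 h0)
  obtain ⟨b, hb, b1⟩ := SetLike.not_le_iff_exists.mp h0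
  have h1 : c * b * c⁻¹ ∈ Q ⊓ J ⊓ Cm z e := mem_inf.mpr ⟨h.cjA hc hcJ b hb.1, by
    simpa only [ce, mul_inv_cancel_right] using Cm.conj hc hb.2⟩
  have h3 : zpowers z ≤ Q ⊓ J ⊓ Cm z e := zpowers_le.mpr ⟨⟨h.zQ, h.zJ⟩, h.QN h.zQ,
    mul_mem (conj_mem_of_mem_normalizer he (mem_zpowers z)) (inv_mem (mem_zpowers z))⟩
  have h4 : zpowers z ⊔ zpowers b < Q ⊓ J ⊓ Cm z e := lt_of_le_of_ne (sup_le h3 (zpowers_le.mpr hb)) fun e1 => by
    obtain ⟨k, hk, v, hv, e2⟩ := (mem_sup_of_right_le_normalizer (zpowers_le.mpr (h.QN hb.1.1))).mp (e1.ge h1)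
    have e3 := h.QN hb.1.1
    rcases Char.mem_zpowers_three (orderOf_eq_prime (h.Q3 b hb.1.1) fun e => b1 (e ▸ one_mem _)) hv with rfl | rfl | rfl
    · exact b1 (by simpa [e2, mul_assoc] using inv_conj_mem_of_mem_normalizer hc (mul_mem hk (one_mem _)))
    · exact b1 (h.of_iv le_rfl hi hb.1.1 (Cm.mul hc hc ⟨e3, by simpa [← e2]⟩ ⟨e3, by simpa [← e2]⟩))
    · refine b1 (h.of_iv le_rfl hi hb.1.1 ⟨e3, ?_⟩)
      have := mul_mem (conj_mem_of_mem_normalizer hc hk) (conj_mem_of_mem_normalizer e3 (inv_mem hk))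
      rwa [show c * k * c⁻¹ * (b * k⁻¹ * b⁻¹) = c * k * c⁻¹ * (k * b⁻¹)⁻¹ * b⁻¹ by group, e2,
        show c * k * c⁻¹ * (c * b * c⁻¹)⁻¹ = c * (k * b⁻¹) * c⁻¹ by group, e2,
        show c * (c * b * c⁻¹) * c⁻¹ = c * c * b * (c * c)⁻¹ by group] at this
  have h5 : zpowers z < zpowers z ⊔ zpowers b := lt_of_le_of_ne le_sup_left fun e1 =>
    b1 (e1.ge (mem_sup_right (mem_zpowers b)))
  have h6 := Set.ncard_lt_ncard (SetLike.coe_ssubset_coe.mpr h4)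
  have h7 := Set.ncard_lt_ncard (SetLike.coe_ssubset_coe.mpr h5)
  obtain ⟨i, hi, e1⟩ := (Nat.dvd_prime_pow (m := 3) Nat.prime_three).mp
    (h.cardA ▸ card_dvd_of_le (h4.le.trans inf_le_left) :)
  obtain ⟨j, hj, e2⟩ := (Nat.dvd_prime_pow (m := 3) Nat.prime_three).mp
    (h.cardA ▸ card_dvd_of_le (inf_le_left : Q ⊓ J ⊓ Cm z e ≤ _) :)
  refine .inr ((eq_of_le_of_card_ge inf_le_left ?_).ge.trans inf_le_right)
  change Nat.card (zpowers z) < Nat.card ↥(zpowers z ⊔ zpowers b) at h7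
  change Nat.card ↥(zpowers z ⊔ zpowers b) < Nat.card ↥(Q ⊓ J ⊓ Cm z e) at h6
  rw [h.cardZ, e1] at h7
  rw [e1, e2] at h6
  rw [e2, h.cardA]
  interval_cases i <;> interval_cases j <;> simp_all

theorem NJa {a : G} (ha : a ∈ J) (a1 : a ∉ Q) (hc : c ∈ Nz z) (e : c * a * c⁻¹ = a ∨ c * a * c⁻¹ = a⁻¹) :
    c ∈ normalizer (J : Set G) :=
  h.SJ (h.NS hc (h.JS ha) a1 (by rcases e with e | e <;> rw [e]; exacts [h.JS ha, h.JS (inv_mem ha)]))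

theorem memS (hc : c ∈ normalizer (S : Set G)) {k : ℕ} (e : c ^ 3 ^ k = 1) : c ∈ S :=
  h.syl.le_of_le_normalizer' (Q := zpowers c) (fun ⟨_, n, rfl⟩ => ⟨k, Subtype.ext (by
    show (c ^ n) ^ 3 ^ k = 1
    rw [← zpow_natCast, ← zpow_mul, mul_comm, zpow_mul, zpow_natCast, e, one_zpow])⟩) le_top (zpowers_le.mpr hc)
    (mem_zpowers c)

theorem iv_q (hr : r ∈ Q) (e : Iv z Q c) : Iv z Q (r * c) := fun q hq => by
  have := mul_mem (conj_mem_of_mem_normalizer (h.QN hr) (e q hq)) (h.cQ r hr _ (inv_mem hq))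
  rwa [show r * (c * q * c⁻¹ * q) * r⁻¹ * (r * q⁻¹ * r⁻¹ * q⁻¹⁻¹) = r * c * q * (r * c)⁻¹ * q by group] at this

theorem not_inv {a : G} (ha : a ∈ J) (a1 : a ∉ Q) (hr : r ∈ Q) : r * a * r⁻¹ ≠ a⁻¹ := fun e =>
  a1 (sq_mem (h.J3 a ha ▸ one_mem _) (by
    have := mul_mem (h.cj (h.LN (h.SL (h.JS ha))) (inv_mem hr)) hr
    rwa [← e, show a * r⁻¹ * (r * a * r⁻¹) * r = a * a by group] at this))

theorem CL {a y f t : G} (ha : a ∈ J) (a1 : a ∉ Q) (hy : y ∈ Nz z) (y5 : y ^ 5 = 1) (y1 : y ≠ 1) (ff : f * f = t)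
    (fz : f * z = z * f) (fa : f * a * f⁻¹ = a⁻¹) (tt : t * t = 1) (ty : t * y = y * t) (ti : Iv z Q t)
    (hc : c ∈ centralizer {z, a, y, f}) : c ∈ Q ∨ c * t ∈ Q := by
  have k0 : ∀ c, c * z = z * c → c ∈ Nz z := fun c e => (mem_Nz h.oz).mpr (.inl (mul_inv_eq_iff_eq_mul.mpr e))
  have k1 : ∀ c, c ∈ centralizer {z, a, y, f} ↔ z * c = c * z ∧ a * c = c * a ∧ y * c = c * y ∧ f * c = c * f :=
    fun c => by simp [mem_centralizer_iff]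
  have k2 : t ∈ centralizer {z, a, y, f} := (k1 t).mpr ⟨ff ▸ ((Commute.symm fz).mul_right (Commute.symm fz)).eq,
    (mul_inv_eq_iff_eq_mul.mp (by rw [← ff, show f * f * a * (f * f)⁻¹ = f * (f * a * f⁻¹) * f⁻¹ by group, fa, ← conj_inv,
      fa, inv_inv])).symm, ty.symm, by rw [← ff, mul_assoc]⟩
  have k3 : ∀ c ∈ centralizer {z, a, y, f}, c ∈ Nz z := fun c hc => k0 c ((k1 c).mp hc).1.symm
  have k4 : ∀ c ∈ centralizer {z, a, y, f}, c ∈ normalizer (J : Set G) := fun c hc =>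
    h.NJa ha a1 (k3 c hc) (.inl (by rw [← ((k1 c).mp hc).2.1, mul_inv_cancel_right]))
  have k5 : ∀ c ∈ centralizer {z, a, y, f}, c ∉ Q → Q ⊓ Cm z c ≤ zpowers z := fun c hc e =>
    (h.inv5 hy y5 y1 (k3 c hc) (by simp [((k1 c).mp hc).2.2.1])).resolve_right
      (mt (h.CV ((k1 c).mp hc).1.symm) e)
  have k6 : ∀ c ∈ centralizer {z, a, y, f}, c ^ 3 ∈ Q → c ∈ Q := fun c hc e => by
    by_contra e1
    obtain ⟨i, hi⟩ := h.SQ (h.JS ha) a1 (h.memS (h.NZJ (k3 c hc) (k4 c hc)) (k := 2) (by rw [pow_two, pow_mul, h.Q3 _ e]))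
    have := card_le_of_le (show Q ⊓ J ≤ zpowers z from fun b hb => k5 c hc e1 ⟨hb.1, by
      simpa using h.cmQ (zpow_mem (h.LN (h.SL (h.JS ha))) (-i)) hi hb.1
        (Cm.of_comm (h.QN hb.1) (h.Jc _ (zpow_mem ha _) b hb.2))⟩)
    rw [h.cardA, h.cardZ] at this
    omega
  have k7 : ∀ c ∈ centralizer {z, a, y, f}, ∀ p : ℕ, p.Prime → c ^ p ∈ Q → c ∈ Q ∨ c * t ∈ Q := fun c hc p hp e => by
    refine or_iff_not_imp_left.mpr fun e1 => ?_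
    by_cases p2 : p = 2
    · rw [p2, pow_two] at e
      exact h.CV ((k1 _).mp (mul_mem hc k2)).1.symm (Iv.mul (k3 c hc) h.QN
        (h.iv_of le_rfl (fun _ => h.cj (k3 c hc)) e (k5 c hc e1)) ti)
    have hc3 := pow_mem hc 3
    have e2 := ncard_diff (show zpowers z ≤ Q ⊓ J from zpowers_le.mpr ⟨h.zQ, h.zJ⟩)
    rw [h.cardA, h.cardZ] at e2
    by_cases p3 : p = 3
    · exact absurd (k6 c hc (p3 ▸ e)) e1
    obtain ⟨b, hb, e3⟩ := M11.exists_commute_of_not_dvd hp (y := c ^ 3) (by rw [← pow_mul, mul_comm, pow_mul, h.Q3 _ e])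
      (X := (Q ⊓ J : Subgroup G) \ zpowers z) (fun u hu => ⟨h.cjA (k3 _ hc3) (k4 _ hc3) u hu.1, fun e => hu.2 (by
        simpa [mul_assoc] using inv_conj_mem_of_mem_normalizer (k3 _ hc3) e)⟩) (by
          rw [show Set.ncard _ = 2 ^ 3 * 3 by omega, hp.dvd_mul, Nat.prime_dvd_prime_iff_eq hp Nat.prime_three]
          exact not_or.mpr ⟨fun e => p2 ((Nat.prime_dvd_prime_iff_eq hp Nat.prime_two).mp (hp.dvd_of_dvd_pow e)), p3⟩)
    exact absurd (k5 _ hc3 (mt (k6 c hc) e1) ⟨hb.1.1, Cm.of_comm (h.QN hb.1.1) e3.eq⟩) hb.2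
  have k8 : ∀ c ∈ centralizer {z, a, y, f}, c * c * t ∉ Q := fun c hc e => by
    obtain ⟨c1, c2, -, c3⟩ := (k1 c).mp hc
    obtain ⟨t1, t2, -, t3⟩ := (k1 t).mp k2
    have e0 : Commute c t := ff ▸ (Commute.symm c3).mul_right (Commute.symm c3)
    have e1 : f * c * (f * c) ∈ Q := by
      rwa [← pow_two, Commute.mul_pow c3, pow_two, pow_two, ff, (e0.symm.mul_right e0.symm).eq]
    have e2 : Commute (f * c) z := Commute.mul_left fz c1.symm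
    have e3 : f * c * a * (f * c)⁻¹ = a⁻¹ := by rw [mul_assoc f, ← c2, ← fa]; group
    rcases h.WL (k0 _ e2) (h.NJa ha a1 (k0 _ e2) (.inr e3)) e1 (k3 c hc) (k4 c hc) (by rw [← mul_assoc, ← c3])
      (by simpa [mul_assoc, tt] using h.iv_q e ti) with e4 | e4
    · refine h.not_inv ha a1 (h.PL (mul_mem (k0 _ e2) (k3 t k2)) (e2.mul_left t1.symm) ?_
        (Iv.mul (k0 _ e2) (inf_le_left.trans h.QN) e4 fun q hq => ti q hq.1)) (by rw [mul_assoc _ t, ← t2, ← e3]; group)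
      rwa [← pow_two, (Commute.mul_left t3 e0).mul_pow, pow_two t, tt, mul_one, pow_two]
    · exact h.not_inv ha a1 (h.PL (k0 _ e2) e2 e1 e4) e3
  induction' hn : orderOf c using Nat.strong_induction_on with n ih generalizing c
  by_cases c1 : c = 1
  · exact .inl (c1 ▸ one_mem _)
  obtain ⟨p, hp, e⟩ := Nat.exists_prime_and_dvd (mt orderOf_eq_one_iff.mp c1)
  rcases ih _ (by rw [orderOf_pow_of_dvd hp.ne_zero e, ← hn]; exact Nat.div_lt_self (orderOf_pos c) hp.one_lt)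
    (pow_mem hc p) rfl with e1 | e1
  · exact k7 c hc p hp e1
  rcases hp.eq_two_or_odd' with rfl | ⟨k, rfl⟩
  · exact absurd (pow_two c ▸ e1) (k8 c hc)
  have e0 : Commute c t := ff ▸ (Commute.symm ((k1 c).mp hc).2.2.2).mul_right (Commute.symm ((k1 c).mp hc).2.2.2)
  simpa [mul_assoc, tt, or_comm] using k7 _ (mul_mem hc k2) _ hp (by
    rwa [e0.mul_pow, pow_succ t, pow_mul t, pow_two t, tt, one_pow, one_mul])

end H0

end Cfsg.Agent.McL3
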