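import Cfsg.Agent.McL3.Dec
import Cfsg.Agent.Local.Fitting
import Cfsg.Agent.S3378
import Cfsg.Agent.Char.FT3Basic
import Cfsg.Prelude.Def_Transfer

/-! The hypotheses of the `3`-local characterization. -/

set_option autoImplicit false
set_option linter.unusedSectionVars false

namespace Cfsg.Agent.McL3

open Cfsg.Agent.Mat Cfsg.Agent.Local Subgroup
open scoped Pointwise

variable {G : Type*} [Group G] [Finite G]

instance fact3 : Fact (Nat.Prime 3) := ⟨Nat.prime_three⟩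

theorem el_mem {M : Type*} [Group M] {ms : List M} {K : Subgroup (cl ms)} (h : ∀ a < ms.length, el ms [a] ∈ K)
    (w : List ℕ) : el ms w ∈ K := by
  induction w with
  | nil => exact one_mem K
  | cons a w ih =>
    rw [show el ms (a :: w) = el ms [a] * el ms w from Subtype.ext (ev_append ms [a] w)]
    refine mul_mem (if e : a < ms.length then h a e else ?_) ih
    rw [show el ms [a] = 1 from Subtype.ext (by
      change ms.getD a 1 * 1 = 1
      rw [List.getD_eq_default _ _ (not_lt.mp e), mul_one])]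
    exact one_mem K

theorem X_top {K : Subgroup X} (h1 : aX ∈ K) (h2 : hX ∈ K) (x : X) : x ∈ K := by
  obtain ⟨w, rfl⟩ := el_surj x
  obtain ⟨-, -, -, e1, -, -, -, e2, e3, -⟩ := X1
  refine el_mem (fun a ha => ?_) w
  rw [show msX.length = 5 from rfl] at ha
  interval_cases a
  exacts [h1, e2 ▸ inv_mem h1, h2, e3 ▸ inv_mem h2, (e1 ▸ pow_mem (mul_mem h1 h2) 2 : tX ∈ K)]

theorem X_equiv : Nonempty (Matrix.SpecialLinearGroup (Fin 2) (ZMod 5) ≃* X) := by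
  obtain ⟨e⟩ := S3378.pres_sl
  obtain ⟨e'⟩ := S3378.equiv_of_gen cardX aX hX tX X1.1 X1.2.1 X1.2.2.1 (X2 _).1 (X2 _).1 X1.2.2.2.1
    fun K h1 h2 _ => eq_top_iff.mpr fun x _ => X_top h1 h2 x
  exact ⟨e.symm.trans e'⟩

theorem A_equiv : Nonempty (alternatingGroup (Fin 6) ≃* A) :=
  ⟨(equivMapOfInjective _ _ (CP.equiv (n := 6)).injective).trans (MulEquiv.subgroupCongr map_alt6.symm)⟩

theorem core_spec (H : Subgroup G) : IsPGroup 3 ((pCore 3 H).map H.subtype) ∧ (pCore 3 H).map H.subtype ≤ H ∧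
    normalizer (H : Set G) ≤ normalizer ((pCore 3 H).map H.subtype : Subgroup G) ∧
    ∀ R : Subgroup G, IsPGroup 3 R → R ≤ H → H ≤ normalizer (R : Set G) → R ≤ (pCore 3 H).map H.subtype := by
  have h1 := (isPGroup_pCore (G := H) 3).map H.subtype
  have h2 : ∀ R : Subgroup G, IsPGroup 3 R → R ≤ H → H ≤ normalizer (R : Set G) → R ≤ (pCore 3 H).map H.subtype :=
    fun R a b c x hx => ⟨⟨x, b hx⟩, le_pCore ((normal_subgroupOf_iff_le_normalizer b).mpr c) a.comap_subtype hx, rfl⟩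
  have h3 : H ≤ normalizer ((pCore 3 H).map H.subtype : Subgroup G) := fun g hg => mem_normalizer_of_conj_mem (by
    rintro - ⟨x, hx, rfl⟩
    exact ⟨_, Normal.conj_mem inferInstance x hx ⟨g, hg⟩, rfl⟩)
  refine ⟨h1, map_subtype_le _, fun g hg => mem_normalizer_of_conj_mem fun n hn => h2 (MulAut.conj g • _) (h1.map _) ?_ ?_
    (conj_mem_conj_smul g hn), h2⟩ <;> rw [mem_normalizer_iff_conj_smul_eq] at hg
  · exact (pointwise_smul_le_pointwise_smul_iff.mpr (map_subtype_le _)).trans hg.le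
  · rw [normalizer_conj_smul]
    exact hg.ge.trans (pointwise_smul_le_pointwise_smul_iff.mpr h3)

/-- The normalizer of a cyclic subgroup. -/
abbrev Nz (z : G) : Subgroup G := normalizer (zpowers z : Set G)

/-- The hypotheses. -/
structure H0 (z : G) (S Q J L M : Subgroup G) (ρ : L →* X) (π : M →* A) : Prop where
  syl : IsSylowIn 3 S ⊤
  oz : orderOf z = 3
  zS : ∀ g ∈ S, (∀ s ∈ S, s * g = g * s) → g ∈ zpowers z
  nS : normalizer (S : Set G) ≤ Nz z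
  zQ : z ∈ Q
  ZQ : ∀ q ∈ Q, (∀ r ∈ Q, r * q = q * r) → q ∈ zpowers z
  cQ : ∀ q ∈ Q, ∀ r ∈ Q, q * r * q⁻¹ * r⁻¹ ∈ zpowers z
  Q3 : ∀ q ∈ Q, q ^ 3 = 1
  cardQ : Nat.card Q = 243
  QS : Q ≤ S
  nQ : Nz z ≤ normalizer (Q : Set G)
  maxQ : ∀ R : Subgroup G, IsPGroup 3 R → R ≤ Nz z → Nz z ≤ normalizer (R : Set G) → R ≤ Q
  L3 : ∀ g ∈ Nz z, ∀ k, g ^ 3 ^ k = 1 → g ∈ L
  Lz : ∀ g ∈ L, g * z = z * g
  nL : Nz z ≤ normalizer (L : Set G)
  ρs : Function.Surjective ρ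
  ρk : ∀ g, ρ g = 1 ↔ g.1 ∈ Q
  JS : J ≤ S
  Jc : ∀ a ∈ J, ∀ b ∈ J, a * b = b * a
  J3 : ∀ a ∈ J, a ^ 3 = 1
  cardJ : Nat.card J = 81
  M3 : ∀ g ∈ normalizer (J : Set G), ∀ k, g ^ 3 ^ k = 1 → g ∈ M
  MJ : M ≤ normalizer (J : Set G)
  nM : normalizer (J : Set G) ≤ normalizer (M : Set G)
  Mle : ∀ H : Subgroup G, (∀ g k, g ^ 3 ^ k = 1 → g ∈ H) → M ≤ H
  πs : Function.Surjective π
  πk : ∀ g, π g = 1 ↔ g.1 ∈ J
  con : ∀ y ∈ J, y ≠ 1 → ∃ R : Subgroup G, IsPGroup 3 R ∧ R ≤ centralizer {y} ∧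
    normalizer (centralizer {y} : Subgroup G) ≤ normalizer (R : Set G) ∧ centralizer (R : Set G) ≤ R

theorem gen3 {H L : Subgroup G} (h : L = closure {g | g ∈ normalizer (H : Set G) ∧ ∃ k, orderOf g = 3 ^ k}) :
    (∀ g ∈ normalizer (H : Set G), ∀ k, g ^ 3 ^ k = 1 → g ∈ L) ∧ normalizer (H : Set G) ≤ normalizer (L : Set G) ∧
      ∀ K : Subgroup G, (∀ g ∈ normalizer (H : Set G), ∀ k, g ^ 3 ^ k = 1 → g ∈ K) → L ≤ K := by
  have h1 : ∀ g ∈ normalizer (H : Set G), ∀ k, g ^ 3 ^ k = 1 → g ∈ L := fun g hg k e => h ▸ subset_closure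
    ⟨hg, ((Nat.dvd_prime_pow Nat.prime_three).mp (orderOf_dvd_of_pow_eq_one e)).imp fun _ => And.right⟩
  have h2 : ∀ K : Subgroup G, (∀ g ∈ normalizer (H : Set G), ∀ k, g ^ 3 ^ k = 1 → g ∈ K) → L ≤ K := fun K hK =>
    h ▸ (closure_le _).mpr fun g ⟨a, k, b⟩ => hK g a k (b ▸ pow_orderOf_eq_one g)
  exact ⟨h1, fun g hg => mem_normalizer_of_conj_mem (h2 (L.comap (MulAut.conj g).toMonoidHom) fun x hx k e =>
    h1 (g * x * g⁻¹) (mul_mem (mul_mem hg hx) (inv_mem hg)) k (by rw [conj_pow, e]; simp)), h2⟩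

theorem mem_Nz {z g : G} (hz : orderOf z = 3) : g ∈ Nz z ↔ g * z * g⁻¹ = z ∨ g * z * g⁻¹ = z⁻¹ := by
  refine ⟨fun h => (Char.mem_zpowers_three hz (conj_mem_of_mem_normalizer h (mem_zpowers z))).resolve_left fun e => ?_,
    fun h => mem_normalizer_of_conj_mem ?_⟩
  · rw [conj_eq_one_iff.mp e] at hz
    simp at hz
  · rintro - ⟨k, rfl⟩
    rw [← conj_zpow]
    rcases h with e | e <;> rw [e] <;> simp

theorem comm_of_odd {z g : G} (hz : orderOf z = 3) (h : g ∈ Nz z) {n : ℕ} (hn : Odd n) (e : g ^ n = 1) :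
    g * z = z * g := by
  obtain ⟨k, rfl⟩ := hn
  have h1 : Commute (g * g) z := by
    refine mul_inv_eq_iff_eq_mul.mp ?_
    rw [show g * g * z * (g * g)⁻¹ = g * (g * z * g⁻¹) * g⁻¹ by group]
    rcases (mem_Nz hz).mp h with e | e <;> rw [e]
    exacts [e, by rw [← conj_inv, e, inv_inv]]
  have h2 := (h1.pow_left (k + 1)).eq
  rwa [← pow_two, ← pow_mul, show 2 * (k + 1) = 2 * k + 1 + 1 by ring, pow_succ, e, one_mul] at h2

theorem exists_H0 (S : Sylow 3 G) (Z : Subgroup G) (hZ : Z = (S : Subgroup G) ⊓ centralizer ((S : Subgroup G) : Set G))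
    (J : Subgroup G) (hJS : J ≤ S) (hJcomm : IsMulCommutative J) (hJexp : ∀ a ∈ J, a ^ 3 = 1) (hJcard : Nat.card J = 3 ^ 4)
    (M : Subgroup G) (hM : M = closure {g : G | g ∈ normalizer (J : Set G) ∧ ∃ k : ℕ, orderOf g = 3 ^ k})
    [(J.subgroupOf M).Normal] (eM : M ⧸ J.subgroupOf M ≃* alternatingGroup (Fin 6))
    (L : Subgroup G) (hL : L = closure {g : G | g ∈ normalizer (Z : Set G) ∧ ∃ k : ℕ, orderOf g = 3 ^ k})
    (Q : Subgroup G) (hQ : Q = (pCore 3 (normalizer (Z : Set G))).map (normalizer (Z : Set G)).subtype)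
    (hQex : IsExtraspecial 3 Q) (hQcard : Nat.card Q = 3 ^ 5) (hQexp : ∀ a ∈ Q, a ^ 3 = 1)
    [(Q.subgroupOf L).Normal] (eL : L ⧸ Q.subgroupOf L ≃* Matrix.SpecialLinearGroup (Fin 2) (ZMod 5))
    (hiii : ∀ x ∈ J, x ≠ 1 → centralizer (((pCore 3 (centralizer ({x} : Set G))).map
      (centralizer ({x} : Set G)).subtype : Subgroup G) : Set G) ≤
        (pCore 3 (centralizer ({x} : Set G))).map (centralizer ({x} : Set G)).subtype) :
    ∃ z ρ π, H0 z S Q J L M ρ π := by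
  obtain ⟨eX⟩ := X_equiv
  obtain ⟨eA⟩ := A_equiv
  obtain ⟨q1, q2, q3, q4⟩ := hQ ▸ core_spec (normalizer (Z : Set G))
  have h1 : normalizer (S : Set G) ≤ normalizer (Z : Set G) :=
    hZ ▸ le_normalizer_inf le_rfl (normalizer_le_normalizer_centralizer _)
  have h2 : Z ≤ Q := q4 Z (hZ ▸ S.isPGroup'.to_inf_left) le_normalizer le_rfl
  have h3 : Q ≤ S := (isSylowIn_top S).le_of_le_normalizer q1 le_top
    (le_normalizer.trans (h1.trans (le_normalizer.trans q3)))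
  have : Nontrivial S := (nontrivial_iff_ne_bot _).mpr fun e => by
    rw [e, le_bot_iff] at hJS
    simp [hJS] at hJcard
  obtain ⟨⟨z, hz⟩, z1⟩ := have := S.isPGroup'.center_nontrivial; exists_ne (1 : center S)
  have h4 : z.1 ∈ Z := hZ ▸ ⟨z.2, fun s hs => congrArg Subtype.val (mem_center_iff.mp hz ⟨s, hs⟩)⟩
  have h5 : orderOf z.1 = 3 := orderOf_eq_prime (hQexp _ (h2 h4)) fun e => z1 (Subtype.ext (Subtype.ext e))
  have h6 : Z ≤ (center Q).map Q.subtype := fun x hx =>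
    ⟨⟨x, h2 hx⟩, mem_center_iff.mpr fun y => Subtype.ext ((hZ ▸ hx).2 _ (h3 y.2)), rfl⟩
  have h7 : zpowers z.1 = (center Q).map Q.subtype := eq_of_le_of_card_ge ((zpowers_le.mpr h4).trans h6) (by
    rw [card_map_of_injective (subtype_injective Q), hQex.2, Nat.card_zpowers, h5])
  obtain rfl : Z = zpowers z.1 := le_antisymm (h7 ▸ h6) (zpowers_le.mpr h4)
  obtain ⟨l1, l2, l3⟩ := gen3 hL
  obtain ⟨m1, m2, m3⟩ := gen3 hM
  refine ⟨z, eX.toMonoidHom.comp (eL.toMonoidHom.comp (QuotientGroup.mk' _)),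
    eA.toMonoidHom.comp (eM.toMonoidHom.comp (QuotientGroup.mk' _)), isSylowIn_top S, h5, fun g a b => hZ ▸ ⟨a, b⟩, h1,
    h2 (mem_zpowers _), fun q a b => h7 ▸ ⟨⟨q, a⟩, mem_center_iff.mpr fun y => Subtype.ext (b _ y.2), rfl⟩,
    fun q a r b => h7 ▸ ⟨_, hQex.1.2.2.le (commutator_mem_commutator (mem_top (⟨q, a⟩ : Q)) (mem_top ⟨r, b⟩)), rfl⟩, hQexp,
    hQcard, h3, le_normalizer.trans q3, q4, l1, fun g hg => mem_centralizer_singleton_iff.mp (l3 _ (fun g a k b =>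
      mem_centralizer_singleton_iff.mpr (comm_of_odd h5 a (Odd.pow (by decide)) b)) hg), l2,
    eX.surjective.comp (eL.surjective.comp (QuotientGroup.mk'_surjective _)), fun g => by simp [mem_subgroupOf], hJS,
    fun a ha b hb => congrArg Subtype.val (hJcomm.is_comm.comm ⟨a, ha⟩ ⟨b, hb⟩), hJexp, hJcard, m1, m3 _ fun _ a _ _ => a,
    m2, fun H hH => m3 H fun g _ => hH g, eA.surjective.comp (eM.surjective.comp (QuotientGroup.mk'_surjective _)),
    fun g => by simp [mem_subgroupOf], fun y a b => ?_⟩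
  obtain ⟨r1, r2, r3, -⟩ := core_spec (centralizer {y})
  exact ⟨_, r1, r2, r3, hiii y a b⟩

end Cfsg.Agent.McL3
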