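import Cfsg.Agent.Pres.Alt

/-! Facts on the symmetric group of degree eight. -/

set_option autoImplicit false
set_option maxRecDepth 100000
set_option synthInstance.maxSize 4000

namespace Cfsg.Agent.McL3

open Equiv Equiv.Perm Subgroup

/-- The symmetric group. -/
abbrev P8 := Perm (Fin 8)

theorem fixp {p : ℕ} (hp : p.Prime) {σ : P8} (h : σ ^ p = 1) {T : Finset (Fin 8)} (hT : ∀ a, σ a ∈ T ↔ a ∈ T)
    (hd : ¬ p ∣ T.card) : ∃ a ∈ T, σ a = a := by
  have := Fact.mk hp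
  obtain ⟨a, ha⟩ := exists_fixed_point_of_prime (p := p) (n := 1) (σ := σ.subtypePerm hT) (by simpa using hd)
    (by ext a; simp [subtypePerm_pow, h])
  exact ⟨a, a.2, congrArg Subtype.val ha⟩

theorem supp_pow {p : ℕ} (hp : p.Prime) {σ : P8} (h : σ ^ p = 1) :
    ∃ k, σ.cycleType = Multiset.replicate k p ∧ σ.support.card = k * p ∧ k * p ≤ 8 ∧ (σ ≠ 1 → 0 < k) := by
  have := Fact.mk hp
  have h1 := cycleType_of_pow_prime_eq_one h
  have h2 : σ.support.card = σ.cycleType.card * p := by rw [← sum_cycleType, h1]; simp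
  exact ⟨_, h1, h2, h2 ▸ (Finset.card_le_univ _).trans_eq (by simp), card_cycleType_pos.mpr⟩

theorem supp5 {y : P8} (h : y ^ 5 = 1) (h1 : y ≠ 1) : y.support.card = 5 := by
  obtain ⟨k, -, a, b, c⟩ := supp_pow Nat.prime_five h
  have := c h1
  omega

theorem supp_conj {x y : P8} (e : x * y * x⁻¹ = y ∨ x * y * x⁻¹ = y⁻¹) (a : Fin 8) : x a ∈ y.support ↔ a ∈ y.support := by
  nth_rw 1 [show y.support = (x * y * x⁻¹).support by rcases e with e | e <;> simp [e]]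
  simp

theorem inv5 {x y : P8} (hx : x * x = 1) (h : y ^ 5 = 1) (h1 : y ≠ 1) (e : x * y * x⁻¹ = y⁻¹) : x.support.card < 8 := by
  obtain ⟨a, -, ha⟩ := fixp Nat.prime_two ((pow_two x).trans hx) (T := y.supportᶜ)
    (fun a => by rw [Finset.mem_compl, Finset.mem_compl, supp_conj (.inr e)]) (by simp [Finset.card_compl, supp5 h h1])
  simpa using Finset.card_lt_univ_of_notMem (notMem_support.mpr ha)

theorem comm5 {p : ℕ} (hp : p.Prime) (p5 : ¬ p ∣ 5) {x y : P8} (hx : x ^ p = 1) (h : y ^ 5 = 1) (h1 : y ≠ 1)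
    (e : x * y = y * x) : x.support.card ≤ 3 := by
  obtain ⟨a, a1, a2⟩ := fixp hp hx (supp_conj (.inl (mul_inv_eq_iff_eq_mul.mpr e))) (supp5 h h1 ▸ p5)
  have h2 : 5 ∣ (x.supportᶜ ∩ y.support).card := by
    by_contra h0
    obtain ⟨b, b1, b2⟩ := fixp Nat.prime_five h (fun a => by
      rw [Finset.mem_inter, Finset.mem_inter, Finset.mem_compl, Finset.mem_compl, apply_mem_support,
        supp_conj (.inl (mul_inv_eq_iff_eq_mul.mpr e.symm))]) h0
    exact mem_support.mp (Finset.mem_inter.mp b1).2 b2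
  have h3 := (Nat.le_of_dvd (Finset.card_pos.mpr ⟨a, by simp [a2, mem_support.mp a1]⟩) h2).trans
    (Finset.card_le_card Finset.inter_subset_left)
  rw [Finset.card_compl, Fintype.card_fin] at h3
  omega

theorem cyc2 {x : P8} (h : x * x = 1) : ∃ k ≤ 4, x.cycleType = Multiset.replicate k 2 ∧ x.support.card = k * 2 ∧
    sign x = (-1) ^ k ∧ (x ≠ 1 → 0 < k) := by
  obtain ⟨k, a, b, c, d⟩ := supp_pow Nat.prime_two ((pow_two x).trans h)
  exact ⟨k, by omega, a, b, by rw [sign_of_cycleType, a]; simp [pow_add, pow_mul'], d⟩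

theorem conj2 {x y : P8} (hx : x * x = 1) (hy : y * y = 1) (e : x.support.card = y.support.card) : IsConj x y := by
  obtain ⟨k, -, a, b, -⟩ := cyc2 hx
  obtain ⟨l, -, c, d, -⟩ := cyc2 hy
  rw [isConj_iff_cycleType_eq, a, c, show k = l by omega]

/-- The generating `3`-cycles. -/
def cc (i : ℕ) : P8 := swap 0 1 * swap 0 (Fin.ofNat 8 (i + 2))

/-- Commuting `5`-cycles. -/
def yy (i : ℕ) : P8 := swap 2 (Fin.ofNat 8 (i + 2)) * (swap 3 4 * swap 4 5 * swap 5 6 * swap 6 7) * swap 2 (Fin.ofNat 8 (i + 2))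

theorem cc_rel : ∀ i < 6, cc i ^ 3 = 1 ∧ cc i ≠ 1 ∧ yy i ^ 5 = 1 ∧ yy i ≠ 1 ∧ cc i * yy i = yy i * cc i ∧
    ∀ j < i, (cc j * cc i) ^ 2 = 1 ∧ cc j * cc i ≠ 1 := by decide +kernel

theorem cc_gen : ∀ i : Fin 6, Pres.altGen 6 i = (cc (i - 1))⁻¹ * cc i * (cc (i - 1))⁻¹ := by decide +kernel

theorem cc_step : ∀ k < 6, 0 < k → ∀ p q r : Fin 8, [p, q, r].Nodup →
    (∀ i < k, (cc i * (swap p q * swap q r)) ^ 2 = 1 ∧ cc i * (swap p q * swap q r) ≠ 1) → ∃ j < 3, ∃ e : Fin 8,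
      (∀ i < k, cc 0 ^ j * swap (Fin.ofNat 8 (k + 2)) e * cc i = cc i * (cc 0 ^ j * swap (Fin.ofNat 8 (k + 2)) e)) ∧
      cc 0 ^ j * swap (Fin.ofNat 8 (k + 2)) e * cc k = swap p q * swap q r * (cc 0 ^ j * swap (Fin.ofNat 8 (k + 2)) e) := by
  decide +kernel

theorem sign_odd {x : P8} {n : ℕ} (h : x ^ (2 * n + 1) = 1) : x ∈ alternatingGroup (Fin 8) := by
  simpa [pow_succ, pow_mul] using congrArg sign h

theorem three {x y : P8} (hx : x ^ 3 = 1) (x1 : x ≠ 1) (h : y ^ 5 = 1) (h1 : y ≠ 1) (e : x * y = y * x) :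
    x.IsThreeCycle := by
  obtain ⟨k, -, a, -, c⟩ := supp_pow Nat.prime_three hx
  have := c x1
  have := comm5 Nat.prime_three (by decide) hx h h1 e
  exact card_support_eq_three_iff.mp (by omega)

theorem aut8 {β : alternatingGroup (Fin 8) →* P8} (hβ : Function.Injective β) : ∃ σ, ∀ x, β x = σ * x * σ⁻¹ := by
  let c (i : ℕ) (hi : i < 6) : alternatingGroup (Fin 8) := ⟨cc i, sign_odd (n := 1) (cc_rel i hi).1⟩
  have h0 : ∀ x, β x = 1 ↔ x.1 = 1 := fun x => (map_eq_one_iff β hβ).trans Subtype.ext_iff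
  have h1 : ∀ i hi, (β (c i hi)).IsThreeCycle := fun i hi => by
    obtain ⟨a1, a2, a3, a4, a5, -⟩ := cc_rel i hi
    exact three (y := β ⟨_, sign_odd (n := 2) a3⟩) (by rw [← map_pow, h0]; exact a1) (mt (h0 _).mp a2)
      (by rw [← map_pow, h0]; exact a3) (mt (h0 _).mp a4) (by rw [← map_mul, ← map_mul]; exact congrArg β (Subtype.ext a5))
  have h2 : ∀ k ≤ 6, ∃ σ, ∀ i hi, i < k → β (c i hi) = σ * cc i * σ⁻¹ := fun k hk => by
    induction k with
    | zero => exact ⟨1, by simp⟩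
    | succ k ih =>
      obtain ⟨σ, hσ⟩ := ih (by omega)
      have h3 : (σ⁻¹ * β (c k hk) * σ⁻¹⁻¹).IsThreeCycle := (cycleType_conj).trans (h1 k hk)
      obtain ⟨τ, t1, t2⟩ : ∃ τ, (∀ i < k, τ * cc i = cc i * τ) ∧ τ * cc k = σ⁻¹ * β (c k hk) * σ⁻¹⁻¹ * τ := by
        rcases k.eq_zero_or_pos with rfl | k0
        · obtain ⟨τ, e⟩ := isConj_iff.mp (isConj_iff_cycleType_eq.mpr ((isThreeCycle_swap_mul_swap_same
            (by decide) (by decide) (by decide) : (cc 0).IsThreeCycle).trans h3.symm))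
          exact ⟨τ, by simp, mul_inv_eq_iff_eq_mul.mp e⟩
        obtain ⟨a, ha⟩ := Finset.card_pos.mp ((Nat.succ_pos 2).trans_eq h3.card_support.symm)
        have h4 := h3.eq_swap_mul_swap_iff_mem_support.mpr ha
        obtain ⟨j, -, e, h5⟩ := cc_step k hk k0 _ _ _ (h3.nodup_iff_mem_support.mpr ha) fun i hi => by
          have h6 : cc i * (σ⁻¹ * β (c k hk) * σ⁻¹⁻¹) = σ⁻¹ * β (c i (hi.trans hk) * c k hk) * σ⁻¹⁻¹ := by
            rw [map_mul, hσ i (hi.trans hk) hi]; group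
          rw [← h4, h6, conj_pow, ne_eq, conj_eq_one_iff, conj_eq_one_iff, ← map_pow, h0, h0]
          exact (cc_rel k hk).2.2.2.2.2 i hi
        exact ⟨_, by rwa [← h4] at h5⟩
      refine ⟨σ * τ, fun i hi e => ?_⟩
      rcases Nat.lt_succ_iff_lt_or_eq.mp e with e | rfl
      · rw [hσ i hi e, mul_assoc σ τ, t1 i e]; group
      · rw [mul_assoc σ τ, t2]; group
  obtain ⟨σ, hσ⟩ := h2 6 le_rfl
  refine ⟨σ, fun x => ?_⟩
  obtain ⟨y, hy, e⟩ := (closure_le (K := (β.eqLocus ((MulAut.conj σ).toMonoidHom.comp (Subgroup.subtype _))).map (Subgroup.subtype _))).mpr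
    (by
      rintro - ⟨i, rfl⟩
      have h3 : ∀ i, i < 6 → cc i ∈ (β.eqLocus ((MulAut.conj σ).toMonoidHom.comp (Subgroup.subtype _))).map (Subgroup.subtype _) :=
        fun i hi => ⟨c i hi, hσ i hi hi, rfl⟩
      rw [cc_gen]
      exact mul_mem (mul_mem (inv_mem (h3 _ (by omega))) (h3 _ i.2)) (inv_mem (h3 _ (by omega))))
    ((Pres.closure_altGen 6).ge x.2)
  exact (show y = x from Subtype.ext e) ▸ hy

end Cfsg.Agent.McL3
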